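import Mathlib
import Cfsg.Agent.H20.FrobTools

/-!
# Centralizers of elements of large prime order in linear groups of degree 3 and characteristic 3
-/

set_option autoImplicit false

universe u v

namespace Cfsg.Agent.H20.FrobFix

open Subgroup Cfsg.Agent.H20.FrobReduce Cfsg.Agent.H20.FrobTools

variable {G : Type u} [Group G] [Finite G] {V : Type v} [AddCommGroup V] [DistribMulAction G V] [Finite V]

/-- the fixed points of `z` -/
def fixSub (V : Type v) [AddCommGroup V] [DistribMulAction G V] (z : G) : AddSubgroup V where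
  carrier := {v | z • v = v}
  add_mem' {a b} ha hb := by
    show z • (a + b) = a + b
    rw [smul_add, show z • a = a from ha, show z • b = b from hb]
  zero_mem' := smul_zero z
  neg_mem' {a} ha := by
    show z • (-a) = -a
    rw [smul_neg, show z • a = a from ha]

omit [Finite G] [Finite V] in
theorem mem_fixSub {z : G} {v : V} : v ∈ fixSub V z ↔ z • v = v := Iff.rfl

omit [Finite G] in
/-- counting the fixed points of `x` on the fixed points of `z` -/
theorem card_modEq {p : ℕ} (hp : p.Prime) {x z : G} (hx : orderOf x = p) (hz : z * x = x * z) :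
    Nat.card (fixSub V z) ≡ Nat.card {v : V // z • v = v ∧ x • v = v} [MOD p] := by
  have : Fact p.Prime := ⟨hp⟩
  have hcomm : ∀ g ∈ zpowers x, z * g = g * z := by
    rintro g ⟨k, rfl⟩
    exact ((show Commute z x from hz).zpow_right k).eq
  let _ : MulAction (zpowers x) (fixSub V z) :=
    { smul := fun g v => ⟨(g : G) • (v : V), by
        rw [mem_fixSub, ← mul_smul, hcomm g g.2, mul_smul, mem_fixSub.1 v.2]⟩
      one_smul := fun v => Subtype.ext (one_smul G (v : V))
      mul_smul := fun g h v => Subtype.ext (mul_smul (g : G) (h : G) (v : V)) }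
  have hsm : ∀ (g : zpowers x) (v : fixSub V z), ((g • v : fixSub V z) : V) = (g : G) • (v : V) := fun _ _ => rfl
  have hP : IsPGroup p (zpowers x) := IsPGroup.of_card (n := 1) (by rw [Nat.card_zpowers, hx, pow_one])
  refine (hP.card_modEq_card_fixedPoints (fixSub V z)).trans ?_
  have e : Nat.card (MulAction.fixedPoints (zpowers x) (fixSub V z)) =
      Nat.card {v : V // z • v = v ∧ x • v = v} := by
    refine Nat.card_congr ⟨fun v => ⟨v.1.1, v.1.2, ?_⟩, fun v => ⟨⟨v.1, v.2.1⟩, ?_⟩, fun _ => rfl, fun _ => rfl⟩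
    · have h2 := congrArg Subtype.val (v.2 ⟨x, mem_zpowers x⟩)
      rwa [hsm] at h2
    · rintro ⟨g, k, rfl⟩
      apply Subtype.ext
      rw [hsm]
      have h1 : x ∈ MulAction.stabilizer G v.1 := v.2.2
      exact zpow_mem h1 k
  rw [e]

/-- the hypotheses -/
structure Hyp (G : Type u) [Group G] (V : Type v) [AddCommGroup V] [DistribMulAction G V] (e p : ℕ) : Prop where
  prime : p.Prime
  card : Nat.card V = 3 ^ e
  pos : 0 < e
  one : 3 ^ e ≡ 1 [MOD p]
  order : ∀ d ≤ e, 3 ^ d ≡ 1 [MOD p] → d = 0 ∨ d = e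
  faith : ∀ g : G, (∀ v : V, g • v = v) → g = 1
  neg : ∀ g : G, ¬ ∀ v : V, g • v = -v

variable {e p : ℕ}

omit [Finite G] in
theorem Hyp.card_cases (h : Hyp G V e p) {z : G} (hz : z ≠ 1) (h1 : Nat.card (fixSub V z) ≡ 1 [MOD p]) {v : V}
    (hv : z • v = v) : v = 0 := by
  have h2 : Nat.card (fixSub V z) ∣ 3 ^ e := by
    rw [← h.card]
    exact AddSubgroup.card_addSubgroup_dvd_card _
  obtain ⟨d, hd, hdc⟩ := (Nat.dvd_prime_pow Nat.prime_three).1 h2
  rw [hdc] at h1
  rcases h.order d hd h1 with h3 | h3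
  · rw [h3, pow_zero] at hdc
    have h4 : fixSub V z = ⊥ := AddSubgroup.eq_bot_of_card_eq _ hdc
    have h5 : v ∈ fixSub V z := hv
    rw [h4] at h5
    exact h5
  · exfalso
    apply hz
    apply h.faith
    intro w
    have h4 : fixSub V z = ⊤ := by
      apply AddSubgroup.eq_top_of_card_eq
      rw [hdc, h3, h.card]
    have h5 : w ∈ fixSub V z := by rw [h4]; exact AddSubgroup.mem_top w
    exact h5

omit [Finite G] in
theorem Hyp.fix_x (h : Hyp G V e p) {x : G} (hx : orderOf x = p) {v : V} (hv : x • v = v) : v = 0 := by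
  have hx1 : x ≠ 1 := by
    rintro rfl
    rw [orderOf_one] at hx
    exact h.prime.one_lt.ne hx
  refine h.card_cases hx1 ?_ hv
  have h1 := card_modEq (V := V) h.prime hx (z := 1) (by rw [one_mul, mul_one])
  have e1 : Nat.card (fixSub V (1 : G)) = 3 ^ e := by
    rw [← h.card]
    exact Nat.card_congr ⟨fun v => v.1, fun v => ⟨v, one_smul G v⟩, fun _ => rfl, fun _ => rfl⟩
  have e2 : Nat.card {v : V // (1 : G) • v = v ∧ x • v = v} = Nat.card (fixSub V x) :=
    Nat.card_congr ⟨fun v => ⟨v.1, v.2.2⟩, fun v => ⟨v.1, one_smul G _, v.2⟩, fun _ => rfl, fun _ => rfl⟩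
  rw [e1, e2] at h1
  exact h1.symm.trans h.one

omit [Finite G] in
theorem Hyp.fix_z (h : Hyp G V e p) {x z : G} (hx : orderOf x = p) (hz : z * x = x * z) (hz1 : z ≠ 1) {v : V}
    (hv : z • v = v) : v = 0 := by
  refine h.card_cases hz1 ?_ hv
  refine (card_modEq h.prime hx hz).trans ?_
  have e1 : Nat.card {v : V // z • v = v ∧ x • v = v} = 1 := by
    rw [Nat.card_eq_one_iff_unique]
    refine ⟨⟨fun a b => Subtype.ext ?_⟩, ⟨⟨0, smul_zero _, smul_zero _⟩⟩⟩
    rw [h.fix_x hx a.2.2, h.fix_x hx b.2.2]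
  rw [e1]

theorem Hyp.not_two_dvd (h : Hyp G V e p) {x : G} (hx : orderOf x = p) :
    ¬ 2 ∣ Nat.card (centralizer ({x} : Set G)) := by
  intro hd
  have : Fact (Nat.Prime 2) := ⟨Nat.prime_two⟩
  obtain ⟨z, hz⟩ := exists_prime_orderOf_dvd_card' (G := centralizer ({x} : Set G)) 2 hd
  have hz2 : orderOf (z : G) = 2 := by rw [orderOf_coe, hz]
  have hz1 : (z : G) ≠ 1 := by
    intro h1
    rw [h1, orderOf_one] at hz2
    omega
  have hzz : (z : G) * z = 1 := by rw [← pow_two, ← hz2, pow_orderOf_eq_one]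
  apply h.neg (z : G)
  intro v
  have h1 : (z : G) • (v + (z : G) • v) = v + (z : G) • v := by
    rw [smul_add, ← mul_smul, hzz, one_smul, add_comm]
  have h2 := h.fix_z hx (mem_cent.1 z.2) hz1 h1
  exact (neg_eq_of_add_eq_zero_right h2).symm

theorem Hyp.not_three_dvd (h : Hyp G V e p) {x : G} (hx : orderOf x = p) :
    ¬ 3 ∣ Nat.card (centralizer ({x} : Set G)) := by
  intro hd
  have : Fact (Nat.Prime 3) := ⟨Nat.prime_three⟩
  obtain ⟨z, hz⟩ := exists_prime_orderOf_dvd_card' (G := centralizer ({x} : Set G)) 3 hd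
  have hz3 : orderOf (z : G) = 3 := by rw [orderOf_coe, hz]
  have hz1 : (z : G) ≠ 1 := by
    intro h1
    rw [h1, orderOf_one] at hz3
    omega
  have h1 := card_modEq (V := V) Nat.prime_three hz3 (z := 1) (by rw [one_mul, mul_one])
  have e1 : Nat.card (fixSub V (1 : G)) = 3 ^ e := by
    rw [← h.card]
    exact Nat.card_congr ⟨fun v => v.1, fun v => ⟨v, one_smul G v⟩, fun _ => rfl, fun _ => rfl⟩
  have e2 : Nat.card {v : V // (1 : G) • v = v ∧ (z : G) • v = v} = 1 := by
    rw [Nat.card_eq_one_iff_unique]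
    refine ⟨⟨fun a b => Subtype.ext ?_⟩, ⟨⟨0, smul_zero _, smul_zero _⟩⟩⟩
    rw [h.fix_z hx (mem_cent.1 z.2) hz1 a.2.2, h.fix_z hx (mem_cent.1 z.2) hz1 b.2.2]
  rw [e1, e2] at h1
  have h2 : 3 ∣ 3 ^ e := dvd_pow_self 3 h.pos.ne'
  have h3 : 3 ^ e % 3 = 1 % 3 := h1
  omega

/-- **The centralizer of `x`.** -/
theorem Hyp.card_cent (h : Hyp G V e p) {a b : ℕ} (hG : Nat.card G = 2 ^ a * 3 ^ b * p) {x : G} (hx : orderOf x = p) :
    Nat.card (centralizer ({x} : Set G)) = p := by
  have h1 : Nat.card (centralizer ({x} : Set G)) ∣ 2 ^ a * 3 ^ b * p := hG ▸ card_subgroup_dvd_card _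
  have c2 : Nat.Coprime (Nat.card (centralizer ({x} : Set G))) (2 ^ a) :=
    Nat.Coprime.pow_right _ ((Nat.Prime.coprime_iff_not_dvd Nat.prime_two).2 (h.not_two_dvd hx)).symm
  have c3 : Nat.Coprime (Nat.card (centralizer ({x} : Set G))) (3 ^ b) :=
    Nat.Coprime.pow_right _ ((Nat.Prime.coprime_iff_not_dvd Nat.prime_three).2 (h.not_three_dvd hx)).symm
  have h2 : Nat.card (centralizer ({x} : Set G)) ∣ p := (c2.mul_right c3).dvd_of_dvd_mul_left h1
  have h3 : orderOf x ∣ Nat.card (centralizer ({x} : Set G)) := orderOf_dvd_natCard _ (mem_cent.2 rfl)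
  rw [hx] at h3
  exact Nat.dvd_antisymm h2 h3

end Cfsg.Agent.H20.FrobFix
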