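import Mathlib
import Cfsg.Agent.H20.FrobTools
import Cfsg.Agent.SporadicA.M11Facts2

/-!
# The group `M₁₁` has only the trivial solutions
-/

set_option autoImplicit false

universe u

namespace Cfsg.Agent.H20.FrobMEleven

open Subgroup Cfsg.Agent.H20.FrobReduce Cfsg.Agent.H20.FrobTools Cfsg.Agent.SporadicA

theorem divs : ∀ n ∈ Finset.range 721, n ∣ 720 → n % 11 = 1 →
    n = 1 ∨ n = 12 ∨ n = 45 ∨ n = 144 := by decide +kernel

theorem orderOf_ne {S : Type u} [Group S] [Finite S] (hS : Cfsg.IsM11 S) (x : S) : orderOf x ≠ 3 ^ (1 + 1) := by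
  intro hx
  have : Fact (Nat.Prime 3) := ⟨Nat.prime_three⟩
  have hP : IsPGroup 3 (zpowers x) := IsPGroup.of_card (n := 2) (by rw [Nat.card_zpowers, hx])
  obtain ⟨P, hP'⟩ := hP.exists_le_sylow
  have h1 := M11Facts2.pow_three_eq_one hS P (hP' (mem_zpowers x))
  have h2 := orderOf_dvd_of_pow_eq_one h1
  rw [hx] at h2
  norm_num at h2

theorem tr {S : Type u} [Group S] [Finite S] (hS : Cfsg.IsM11 S) : Tr S := by
  have hs := hS.1
  have hcard : Nat.card S = 7920 := hS.2
  have h11 : Nat.Prime 11 := by norm_num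
  have h5 : Nat.Prime 5 := by norm_num
  have : Fact (Nat.Prime 11) := ⟨h11⟩
  have : Fact (Nat.Prime 5) := ⟨h5⟩
  have hna : ¬ ∀ a b : S, a * b = b * a := by
    apply not_comm
    rw [hcard]
    norm_num
  have h2 : ∀ x : S, orderOf x ≠ 2 ^ (3 + 1) := not_cyclic_two hna (by norm_num) (by rw [hcard]; norm_num)
  have h3 := orderOf_ne hS
  obtain ⟨x, hx⟩ := exists_prime_orderOf_dvd_card' (G := S) 11 (by rw [hcard]; norm_num)
  obtain ⟨y, hy⟩ := exists_prime_orderOf_dvd_card' (G := S) 5 (by rw [hcard]; norm_num)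
  have hC : Nat.card (centralizer ({x} : Set S)) = 11 := M11Sylow.card_centralizer_eleven hS hx
  have hC5 : Nat.card (centralizer ({y} : Set S)) = 5 := M11Facts.card_centralizer_five hS hy
  have hx1 : x ≠ 1 := by rintro rfl; rw [orderOf_one] at hx; omega
  have hy1 : y ≠ 1 := by rintro rfl; rw [orderOf_one] at hy; omega
  obtain ⟨w, i, hw, hi, hN, hwi⟩ := exists_normalizer h11 hx hC (by rw [hcard]; norm_num)
  have hw5 : w = 5 := by
    rw [hcard] at hwi
    have h4 : w ≤ 10 := Nat.le_of_dvd (by norm_num) hw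
    have h5 : i % 11 = 1 := hi
    interval_cases w <;> omega
  subst hw5
  intro n hn hc
  obtain ⟨k, hk⟩ := hn
  by_cases h7 : 11 ∣ n
  · right
    have hk3 := k_le h11 hx hN (by norm_num) hk.symm hc h7
    rw [hcard] at hk ⊢
    interval_cases k
    · omega
    · omega
    · exfalso
      obtain rfl : n = 3960 := by omega
      exact jump (e := 3) Nat.prime_two (by norm_num) h2 (by rw [hcard]) hc
    · exfalso
      obtain rfl : n = 2640 := by omega
      exact jump (e := 1) Nat.prime_three (by norm_num) h3 (by rw [hcard]) hc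
    · exfalso
      obtain rfl : n = 1980 := by omega
      have h8 := class_two (n := 1980) hx1 hy1
        (orderOf_dvd_iff_pow_eq_one.1 (by rw [hx]; norm_num)) (orderOf_dvd_iff_pow_eq_one.1 (by rw [hy]; norm_num))
        (by rw [hx, hy]; norm_num)
      have h9 := index_mul_card (centralizer ({x} : Set S))
      have h10 := index_mul_card (centralizer ({y} : Set S))
      rw [hC, hcard] at h9
      rw [hC5, hcard] at h10
      rw [hc] at h8
      omega
    · exfalso
      obtain rfl : n = 1584 := by omega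
      have h8 := modEq_one (n := 1584) h5 hy hC5 (by norm_num)
      rw [hc] at h8
      exact absurd h8 (by decide)
  · left
    have h8 := modEq_one (n := n) h11 hx hC h7
    rw [hc] at h8
    have hk' := hk
    rw [hcard] at hk
    have hd : n ∣ 720 := (Nat.Coprime.symm ((Nat.Prime.coprime_iff_not_dvd h11).2 h7)).dvd_of_dvd_mul_right
      (show n ∣ 720 * 11 from ⟨k, by omega⟩)
    have hnle := Nat.le_of_dvd (by norm_num) hd
    rcases divs n (Finset.mem_range.2 (by omega)) hd h8 with h | rfl | rfl | rfl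
    · exact h
    · exact absurd hc (jump (e := 1) Nat.prime_three (by norm_num) h3 (by rw [hcard]; norm_num))
    · have h9 := lt_cent hk'.symm hc hy1 (orderOf_dvd_iff_pow_eq_one.1 (by rw [hy]; norm_num))
      rw [hC5] at h9
      omega
    · have h9 := modEq_one (n := 144) h5 hy hC5 (by norm_num)
      rw [hc] at h9
      exact absurd h9 (by decide)

end Cfsg.Agent.H20.FrobMEleven
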