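import Mathlib
import Cfsg.Agent.H20.FrobTools
import Cfsg.Agent.H98.SzPartition
import Cfsg.Agent.S0333
import Cfsg.Agent.S0324
import Cfsg.Agent.OddCyclic.ClaimC.SzIso

/-!
# The Suzuki groups have only the trivial solutions
-/

set_option autoImplicit false

universe u v

namespace Cfsg.Agent.H20.FrobSz

open Subgroup Cfsg.Agent.H20.FrobReduce Cfsg.Agent.H20.FrobTools
open Cfsg.Agent.LieExceptional Cfsg.Agent.LieExceptional.SuzukiBasic Cfsg.Agent.LieExceptional.SuzukiSylow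
open Cfsg.Agent.H98.SzBasic Cfsg.Agent.H98.SzPartition

/-! ### arithmetic -/

theorem arith_main {q A0 A1 A2 a0 a1 a2 t0 t1 t2 tP : ℕ} (hA0 : A0 + 1 = q) (hs : A1 + A2 = 2 * (q + 1))
    (hp : A1 * A2 = q ^ 2 + 1) (h0 : 0 < a0) (h1 : 0 < a1) (h2 : 0 < a2) (l0 : a0 ≤ A0) (l1 : a1 ≤ A1) (l2 : a2 ≤ A2)
    (c0 : q ^ 2 * (q ^ 2 + 1) * (a0 - 1) ≤ t0 * 2) (c1 : q ^ 2 * A0 * A2 * (a1 - 1) ≤ t1 * 4)
    (c2 : q ^ 2 * A0 * A1 * (a2 - 1) ≤ t2 * 4) (cP : q ^ 4 ≤ tP + 1)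
    (hn : t0 + t1 + t2 + tP + 1 ≤ q ^ 2 * (a0 * a1 * a2)) : a0 = A0 ∧ a1 = A1 ∧ a2 = A2 := by
  have hq0 : 0 < q := by omega
  zify [h0, h1, h2] at hA0 hs hp l0 l1 l2 c0 c1 c2 cP hn ⊢
  have p0 : (0 : ℤ) < a0 := by exact_mod_cast h0
  have p1 : (0 : ℤ) < a1 := by exact_mod_cast h1
  have p2 : (0 : ℤ) < a2 := by exact_mod_cast h2
  have hq : (0 : ℤ) < q := by exact_mod_cast hq0
  have hA0' : (A0 : ℤ) = q - 1 := by linarith
  have key : (q : ℤ) ^ 2 * (2 * (A1 * A2) * a0 + A0 * A2 * a1 + A0 * A1 * a2) ≤ q ^ 2 * (4 * (a0 * a1 * a2)) := by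
    have e1 : (2 : ℤ) * (q ^ 2 * (q ^ 2 + 1)) + q ^ 2 * A0 * A2 + q ^ 2 * A0 * A1 = 4 * q ^ 4 := by
      have : (q : ℤ) ^ 2 * A0 * A2 + q ^ 2 * A0 * A1 = q ^ 2 * A0 * (A1 + A2) := by ring
      rw [add_assoc, this, hs, hA0']
      ring
    have e2 : (q : ℤ) ^ 2 * (2 * (A1 * A2) * a0 + A0 * A2 * a1 + A0 * A1 * a2) =
        2 * (q ^ 2 * (q ^ 2 + 1) * (a0 - 1)) + q ^ 2 * A0 * A2 * (a1 - 1) + q ^ 2 * A0 * A1 * (a2 - 1) +
        (2 * (q ^ 2 * (q ^ 2 + 1)) + q ^ 2 * A0 * A2 + q ^ 2 * A0 * A1) := by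
      rw [hp]; ring
    rw [e2, e1]
    linarith
  have key2 := le_of_mul_le_mul_left key (by positivity)
  have u1 : (a1 : ℤ) * a2 ≤ A1 * A2 := mul_le_mul l1 l2 p2.le (by linarith)
  have u2 : (a0 : ℤ) * a2 ≤ A0 * A2 := mul_le_mul l0 l2 p2.le (by linarith)
  have u3 : (a0 : ℤ) * a1 ≤ A0 * A1 := mul_le_mul l0 l1 p1.le (by linarith)
  have v1 : 0 ≤ (a0 : ℤ) * (A1 * A2 - a1 * a2) := mul_nonneg p0.le (by linarith)
  have v2 : 0 ≤ (a1 : ℤ) * (A0 * A2 - a0 * a2) := mul_nonneg p1.le (by linarith)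
  have v3 : 0 ≤ (a2 : ℤ) * (A0 * A1 - a0 * a1) := mul_nonneg p2.le (by linarith)
  have w0 : 2 * ((a0 : ℤ) * (A1 * A2 - a1 * a2)) + a1 * (A0 * A2 - a0 * a2) + a2 * (A0 * A1 - a0 * a1) ≤ 0 := by
    have e : 2 * ((a0 : ℤ) * (A1 * A2 - a1 * a2)) + a1 * (A0 * A2 - a0 * a2) + a2 * (A0 * A1 - a0 * a1) =
      2 * (A1 * A2) * a0 + A0 * A2 * a1 + A0 * A1 * a2 - 4 * (a0 * a1 * a2) := by ring
    rw [e]
    linarith
  have w1 : (a0 : ℤ) * (A1 * A2 - a1 * a2) = 0 := by linarith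
  have w2 : (a1 : ℤ) * (A0 * A2 - a0 * a2) = 0 := by linarith
  have x1 : (A1 : ℤ) * A2 - a1 * a2 = 0 := (mul_eq_zero.1 w1).resolve_left p0.ne'
  have x2 : (A0 : ℤ) * A2 - a0 * a2 = 0 := (mul_eq_zero.1 w2).resolve_left p1.ne'
  have y2 : (a2 : ℤ) = A2 := by
    by_contra hne
    have : (a2 : ℤ) < A2 := lt_of_le_of_ne l2 hne
    have : (a1 : ℤ) * a2 < A1 * A2 := by nlinarith
    linarith
  have y1 : (a1 : ℤ) = A1 := by
    by_contra hne
    have : (a1 : ℤ) < A1 := lt_of_le_of_ne l1 hne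
    have : (a1 : ℤ) * a2 < A1 * A2 := by nlinarith
    linarith
  refine ⟨?_, y1, y2⟩
  have x3 : (A0 - a0 : ℤ) * A2 = 0 := by rw [y2] at x2; linarith
  rcases mul_eq_zero.1 x3 with h | h
  · linarith
  · rw [← y2] at h
    exact absurd h p2.ne'

theorem final_main {q A0 A1 A2 n t0 t1 t2 tP : ℕ} (hA0 : A0 + 1 = q) (hA0' : 0 < A0) (hs : A1 + A2 = 2 * (q + 1))
    (hp : A1 * A2 = q ^ 2 + 1) (c01 : Nat.Coprime A0 A1) (c02 : Nat.Coprime A0 A2) (c12 : Nat.Coprime A1 A2)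
    (d0 : Nat.Coprime A0 (q ^ 2)) (d1 : Nat.Coprime A1 (q ^ 2)) (d2 : Nat.Coprime A2 (q ^ 2))
    (hn : n ∣ q ^ 2 * (q ^ 2 + 1) * A0) (hqn : q ^ 2 ∣ n)
    (D0 : q ^ 2 * (q ^ 2 + 1) * A0 * (Nat.gcd n A0 - 1) ≤ t0 * (A0 * 2))
    (D1 : q ^ 2 * (q ^ 2 + 1) * A0 * (Nat.gcd n A1 - 1) ≤ t1 * (4 * A1))
    (D2 : q ^ 2 * (q ^ 2 + 1) * A0 * (Nat.gcd n A2 - 1) ≤ t2 * (4 * A2))
    (DP : q ^ 2 * (q ^ 2 + 1) * A0 * (q ^ 2 - 1) ≤ tP * (q ^ 2 * A0))
    (hle : t0 + t1 + t2 + tP + 1 ≤ n) : n = q ^ 2 * (q ^ 2 + 1) * A0 := by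
  have hq0 : 0 < q := by omega
  have hA1 : 0 < A1 := Nat.pos_of_ne_zero (by rintro rfl; rw [zero_mul] at hp; omega)
  have hA2 : 0 < A2 := Nat.pos_of_ne_zero (by rintro rfl; rw [mul_zero] at hp; omega)
  have hn' : n = q ^ 2 * (Nat.gcd n A0 * Nat.gcd n A1 * Nat.gcd n A2) := by
    have h1 : Nat.gcd n (q ^ 2 * (A0 * A1 * A2)) = n := by
      apply Nat.gcd_eq_left
      have e : q ^ 2 * (A0 * A1 * A2) = q ^ 2 * (q ^ 2 + 1) * A0 := by rw [← hp]; ring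
      rw [e]
      exact hn
    rw [Nat.Coprime.gcd_mul n ((d0.mul_left d1).mul_left d2).symm, Nat.Coprime.gcd_mul n (c02.mul_left c12),
      Nat.Coprime.gcd_mul n c01, Nat.gcd_eq_right hqn] at h1
    exact h1.symm
  have c0 : q ^ 2 * (q ^ 2 + 1) * (Nat.gcd n A0 - 1) ≤ t0 * 2 := by
    refine Nat.le_of_mul_le_mul_right (le_trans (le_of_eq ?_) (D0.trans (le_of_eq ?_))) hA0'
    · ring
    · ring
  have c1 : q ^ 2 * A0 * A2 * (Nat.gcd n A1 - 1) ≤ t1 * 4 := by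
    refine Nat.le_of_mul_le_mul_right (le_trans (le_of_eq ?_) (D1.trans (le_of_eq ?_))) hA1
    · rw [← hp]; ring
    · ring
  have c2 : q ^ 2 * A0 * A1 * (Nat.gcd n A2 - 1) ≤ t2 * 4 := by
    refine Nat.le_of_mul_le_mul_right (le_trans (le_of_eq ?_) (D2.trans (le_of_eq ?_))) hA2
    · rw [← hp]; ring
    · ring
  have cP : q ^ 4 ≤ tP + 1 := by
    have h1 : (q ^ 2 + 1) * (q ^ 2 - 1) ≤ tP := by
      refine Nat.le_of_mul_le_mul_right (le_trans (le_of_eq ?_) DP) (Nat.mul_pos (pow_pos hq0 2) hA0')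
      ring
    have h2 : q ^ 4 = (q ^ 2 + 1) * (q ^ 2 - 1) + 1 := by
      have h3 : 1 ≤ q ^ 2 := Nat.one_le_pow _ _ hq0
      obtain ⟨j, hj⟩ : ∃ j, q ^ 2 = j + 1 := ⟨q ^ 2 - 1, by omega⟩
      have h4 : q ^ 4 = q ^ 2 * q ^ 2 := by ring
      rw [h4, hj, Nat.add_sub_cancel]
      ring
    omega
  obtain ⟨e0, e1, e2⟩ := arith_main hA0 hs hp (Nat.gcd_pos_of_pos_right n hA0') (Nat.gcd_pos_of_pos_right n hA1)
    (Nat.gcd_pos_of_pos_right n hA2) (Nat.le_of_dvd hA0' (Nat.gcd_dvd_right _ _))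
    (Nat.le_of_dvd hA1 (Nat.gcd_dvd_right _ _)) (Nat.le_of_dvd hA2 (Nat.gcd_dvd_right _ _)) c0 c1 c2 cP
    (by rw [← hn']; exact hle)
  rw [hn', e0, e1, e2, ← hp]
  ring

theorem final_two {q A0 n t0 t1 : ℕ} (hA0 : A0 + 1 = q) (hq : 8 ≤ q) (heven : 2 ∣ n) (h4 : ¬ 4 ∣ n) {s : ℕ}
    (hs : q = 2 ^ s) (hn : n ∣ q ^ 2 * (q ^ 2 + 1) * A0)
    (DI : (q ^ 2 + 1) * A0 ≤ t1) (hle1 : t1 + 1 ≤ n)
    (D0 : q ^ 2 * (q ^ 2 + 1) * A0 * (Nat.gcd n A0 - 1) ≤ t0 * (A0 * 2)) (hle0 : t0 + 1 ≤ n) : False := by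
  obtain ⟨o, rfl⟩ := heven
  have ho : ¬ 2 ∣ o := by
    rintro ⟨j, rfl⟩
    exact h4 ⟨j, by ring⟩
  have hod : o ∣ (q ^ 2 + 1) * A0 := by
    have h1 : o ∣ q ^ 2 * ((q ^ 2 + 1) * A0) := by
      rw [← mul_assoc]
      exact (dvd_mul_left o 2).trans hn
    refine Nat.Coprime.dvd_of_dvd_mul_left ?_ h1
    rw [hs, ← pow_mul]
    apply Nat.Coprime.pow_right
    rw [Nat.coprime_comm, Nat.Prime.coprime_iff_not_dvd Nat.prime_two]
    exact ho
  obtain ⟨j, hj⟩ := hod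
  have hA : 0 < A0 := by omega
  have hj1 : j = 1 := by
    have hj0 : j ≠ 0 := by
      rintro rfl
      rw [mul_zero] at hj
      exact absurd hj (Nat.mul_pos (by positivity) hA).ne'
    by_contra hne
    have hj2 : 2 ≤ j := by omega
    have h1 : o * 2 ≤ o * j := Nat.mul_le_mul_left o hj2
    omega
  rw [hj1, mul_one] at hj
  have hg : Nat.gcd (2 * o) A0 = A0 := by
    apply Nat.gcd_eq_right
    rw [← hj]
    exact ⟨2 * (q ^ 2 + 1), by ring⟩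
  rw [hg] at D0
  have c0 : q ^ 2 * (q ^ 2 + 1) * (A0 - 1) ≤ t0 * 2 := by
    refine Nat.le_of_mul_le_mul_right (le_trans (le_of_eq ?_) (D0.trans (le_of_eq ?_))) hA
    · ring
    · ring
  have h1 : (q ^ 2 + 1) * (q ^ 2 * (A0 - 1)) < (q ^ 2 + 1) * (4 * A0) := by
    have e1 : (q ^ 2 + 1) * (q ^ 2 * (A0 - 1)) = q ^ 2 * (q ^ 2 + 1) * (A0 - 1) := by ring
    have e2 : (q ^ 2 + 1) * (4 * A0) = 4 * ((q ^ 2 + 1) * A0) := by ring
    rw [e1, e2, hj]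
    omega
  have h2 := Nat.lt_of_mul_lt_mul_left h1
  have h3 : 64 ≤ q ^ 2 := by nlinarith
  have h5 : 64 * (A0 - 1) ≤ q ^ 2 * (A0 - 1) := Nat.mul_le_mul_right _ h3
  omega

/-! ### counting -/

/-- counting the solutions in the conjugates of a TI subgroup -/
theorem count_torus {G : Type u} [Group G] [Finite G] (U N : Subgroup G) (A n : ℕ) (hA : Nat.card U = A)
    (hTI : ∀ b ∈ U, b ≠ 1 → ∀ c ∈ U, ∀ g, g * b * g⁻¹ = c → g ∈ N) :
    Nat.card G * (Nat.gcd n A - 1) ≤ Nat.card {x : G | x ≠ 1 ∧ x ^ n = 1 ∧ orderOf x ∣ A} * Nat.card N := by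
  classical
  have h1 := ti_count N {x : G | x ∈ U ∧ x ≠ 1 ∧ x ^ n = 1} {x : G | x ≠ 1 ∧ x ^ n = 1 ∧ orderOf x ∣ A} (by
    rintro b ⟨hb, hb1, -⟩ c ⟨hc, -⟩ g h
    exact hTI b hb hb1 c hc g h) (by
    rintro g b ⟨hb, hb1, hbn⟩
    refine ⟨fun h => hb1 (conj_eq_one_iff.1 h), by rw [conj_pow, hbn, mul_one, mul_inv_cancel], ?_⟩
    have e : orderOf (g * b * g⁻¹) = orderOf b := (MulAut.conj g).orderOf_eq b
    rw [e, ← hA]
    exact orderOf_dvd_natCard _ hb)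
  refine le_trans (Nat.mul_le_mul_left _ ?_) h1
  have h2 := Nat.le_of_dvd (cnt_pos U n) (gcd_dvd_cnt U n)
  rw [hA] at h2
  have h3 : cnt U n ≤ Nat.card ↥{x : G | x ∈ U ∧ x ≠ 1 ∧ x ^ n = 1} + 1 := by
    rw [← Finite.card_option]
    refine Nat.card_le_card_of_injective (fun y : {y : U // y ^ n = 1} =>
      if h : (y.1 : G) = 1 then none else some ⟨(y.1 : G), y.1.2, h, by
        have := congrArg Subtype.val y.2; simpa using this⟩) ?_
    rintro ⟨⟨y, hy⟩, hyn⟩ ⟨⟨z, hz⟩, hzn⟩ h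
    simp only at h
    by_cases hy1 : y = 1
    · by_cases hz1 : z = 1
      · subst hy1 hz1
        rfl
      · rw [dif_pos hy1, dif_neg hz1] at h
        exact absurd h (by simp)
    · by_cases hz1 : z = 1
      · rw [dif_neg hy1, dif_pos hz1] at h
        exact absurd h (by simp)
      · rw [dif_neg hy1, dif_neg hz1, Option.some_inj] at h
        have := congrArg Subtype.val h
        simp only at this
        subst this
        rfl
  omega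

/-- four disjoint sets of solutions -/
theorem four_le {G : Type u} [Group G] [Finite G] {n : ℕ} (T0 T1 T2 T3 : Set G)
    (h0 : ∀ y ∈ T0, y ≠ 1 ∧ y ^ n = 1) (h1 : ∀ y ∈ T1, y ≠ 1 ∧ y ^ n = 1) (h2 : ∀ y ∈ T2, y ≠ 1 ∧ y ^ n = 1)
    (h3 : ∀ y ∈ T3, y ≠ 1 ∧ y ^ n = 1) (d01 : Disjoint T0 T1) (d02 : Disjoint T0 T2) (d12 : Disjoint T1 T2)
    (d03 : Disjoint T0 T3) (d13 : Disjoint T1 T3) (d23 : Disjoint T2 T3) :
    Nat.card T0 + Nat.card T1 + Nat.card T2 + Nat.card T3 + 1 ≤ cnt G n := by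
  have h := card_add_one_le (n := n) (T0 ∪ T1 ∪ T2 ∪ T3) (by
    rintro y (((hy | hy) | hy) | hy)
    · exact h0 y hy
    · exact h1 y hy
    · exact h2 y hy
    · exact h3 y hy)
  rw [Nat.card_coe_set_eq, Set.ncard_union_eq (Set.disjoint_union_left.2 ⟨Set.disjoint_union_left.2 ⟨d03, d13⟩, d23⟩)
    (Set.toFinite _) (Set.toFinite _), Set.ncard_union_eq (Set.disjoint_union_left.2 ⟨d02, d12⟩)
    (Set.toFinite _) (Set.toFinite _), Set.ncard_union_eq d01 (Set.toFinite _) (Set.toFinite _)] at h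
  exact h

theorem disjoint_of_coprime {G : Type u} [Group G] {n a b : ℕ} (hab : Nat.Coprime a b) :
    Disjoint {x : G | x ≠ 1 ∧ x ^ n = 1 ∧ orderOf x ∣ a} {x : G | x ≠ 1 ∧ x ^ n = 1 ∧ orderOf x ∣ b} := by
  rw [Set.disjoint_left]
  rintro x ⟨hx, -, ha⟩ ⟨-, -, hb⟩
  exact hx (orderOf_eq_one_iff.1 (Nat.eq_one_of_dvd_coprimes hab ha hb))

variable {F : Type v} [Field F] [Fintype F] {m : ℕ}

/-! ### the split torus -/

theorem fix_h (hF : Fintype.card F = 2 ^ (2 * m + 1)) {k : Fˣ} (hk : k ≠ 1) {p : Cfsg.suzukiOvoid F m}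
    (hp : h hF k • p = p) : p = inf F m ∨ p = zer F m := by
  by_contra hcon
  push Not at hcon
  refine hk ((H_fix_iff hF k p.2 ?_ ?_).1 (congrArg Subtype.val hp))
  · intro e
    exact hcon.1 (Subtype.ext e)
  · intro e
    exact hcon.2 (Subtype.ext e)

/-- an element conjugating a nonidentity diagonal element to a diagonal element -/
theorem mem_or (hm : 1 ≤ m) (hF : Fintype.card F = 2 ^ (2 * m + 1)) {g : Cfsg.Sz F m} {k l : Fˣ} (hk : k ≠ 1)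
    (e : g * h hF k * g⁻¹ = h hF l) : g ∈ T hF ∨ w hF * g ∈ T hF := by
  have hl : l ≠ 1 := by
    rintro rfl
    rw [h_one, conj_eq_one_iff, ← h_one hF, h_eq_iff] at e
    exact hk e
  have h1 : h hF l • (g • inf F m) = g • inf F m := by
    rw [← e, mul_smul, mul_smul, inv_smul_smul, h_smul_inf]
  have h2 : h hF l • (g • zer F m) = g • zer F m := by
    rw [← e, mul_smul, mul_smul, inv_smul_smul, h_smul_zer]
  have hne : g • inf F m ≠ g • zer F m := fun e => zer_ne_inf (smul_left_cancel g e).symm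
  rcases fix_h hF hl h1 with h3 | h3
  · rcases fix_h hF hl h2 with h4 | h4
    · exact absurd (h3.trans h4.symm) hne
    · left
      obtain ⟨j, hj⟩ := eq_h hm hF h3 h4
      exact ⟨j, hj.symm⟩
  · rcases fix_h hF hl h2 with h4 | h4
    · right
      obtain ⟨j, hj⟩ := eq_h hm hF (g := w hF * g) (by rw [mul_smul, h3, w_smul_zer])
        (by rw [mul_smul, h4, w_smul_inf])
      exact ⟨j, hj.symm⟩
    · exact absurd (h3.trans h4.symm) hne

/-- the group `T ∪ w T` -/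
def N0 (hF : Fintype.card F = 2 ^ (2 * m + 1)) : Subgroup (Cfsg.Sz F m) where
  carrier := {g | g ∈ T hF ∨ w hF * g ∈ T hF}
  one_mem' := Or.inl (one_mem _)
  mul_mem' := by
    have hw : ∀ {g : Cfsg.Sz F m}, g ∈ T hF → w hF * g * w hF ∈ T hF := by
      rintro g ⟨k, rfl⟩
      refine ⟨k⁻¹, ?_⟩
      rw [hHom_apply, hHom_apply, w_mul_h, mul_assoc, w_mul_w, mul_one]
    rintro a b (ha | ha) (hb | hb)
    · exact Or.inl (mul_mem ha hb)
    · right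
      have e : w hF * (a * b) = (w hF * a * w hF) * (w hF * b) := by
        rw [mul_assoc (w hF * a), ← mul_assoc (w hF) (w hF) b, w_mul_w, one_mul, mul_assoc]
      rw [e]
      exact mul_mem (hw ha) hb
    · right
      rw [← mul_assoc]
      exact mul_mem ha hb
    · left
      have e : a * b = (w hF * (w hF * a) * w hF) * (w hF * b) := by
        rw [← mul_assoc (w hF) (w hF) a, w_mul_w, one_mul, mul_assoc a, ← mul_assoc (w hF) (w hF) b, w_mul_w, one_mul]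
      rw [e]
      exact mul_mem (hw ha) hb
  inv_mem' := by
    have hw : ∀ {g : Cfsg.Sz F m}, g ∈ T hF → w hF * g * w hF ∈ T hF := by
      rintro g ⟨k, rfl⟩
      refine ⟨k⁻¹, ?_⟩
      rw [hHom_apply, hHom_apply, w_mul_h, mul_assoc, w_mul_w, mul_one]
    rintro a (ha | ha)
    · exact Or.inl (inv_mem ha)
    · right
      have h1 := hw (inv_mem ha)
      rw [mul_inv_rev, w_inv, mul_assoc, mul_assoc, w_mul_w, mul_one] at h1
      exact h1

theorem card_N0 (hF : Fintype.card F = 2 ^ (2 * m + 1)) : Nat.card (N0 (m := m) hF) ≤ (2 ^ (2 * m + 1) - 1) * 2 := by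
  classical
  have h1 : Nat.card (N0 (m := m) hF) ≤ Nat.card (T (m := m) hF × Bool) := by
    have : Finite (T (m := m) hF) := Finite.of_equiv _ (equivT hF).toEquiv
    refine Nat.card_le_card_of_injective (fun g : N0 (m := m) hF =>
      if hg : (g : Cfsg.Sz F m) ∈ T hF then (⟨g, hg⟩, true) else (⟨w hF * g, g.2.resolve_left hg⟩, false)) ?_
    rintro ⟨a, ha⟩ ⟨b, hb⟩ he
    simp only at he
    by_cases hat : a ∈ T hF
    · by_cases hbt : b ∈ T hF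
      · rw [dif_pos hat, dif_pos hbt] at he
        have := congrArg (fun p : T (m := m) hF × Bool => (p.1 : Cfsg.Sz F m)) he
        exact Subtype.ext this
      · rw [dif_pos hat, dif_neg hbt] at he
        exact absurd (congrArg Prod.snd he) (by simp)
    · by_cases hbt : b ∈ T hF
      · rw [dif_neg hat, dif_pos hbt] at he
        exact absurd (congrArg Prod.snd he) (by simp)
      · rw [dif_neg hat, dif_neg hbt] at he
        have := congrArg (fun p : T (m := m) hF × Bool => (p.1 : Cfsg.Sz F m)) he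
        exact Subtype.ext (mul_left_cancel this)
  rw [Nat.card_prod, card_T, Nat.card_eq_fintype_card (α := Bool), Fintype.card_bool] at h1
  exact h1

/-! ### the Sylow 2-subgroup -/

/-- the Borel subgroup -/
abbrev B0 (F : Type v) [Field F] (m : ℕ) : Subgroup (Cfsg.Sz F m) :=
  MulAction.stabilizer (Cfsg.Sz F m) (Cfsg.suzukiPointInfinity F)

theorem mem_B0_of_conj (hF : Fintype.card F = 2 ^ (2 * m + 1)) {g b c : Cfsg.Sz F m} (hb : b ∈ Q hF) (hb1 : b ≠ 1)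
    (hc : c ∈ Q hF) (e : g * b * g⁻¹ = c) : g ∈ B0 F m := by
  obtain ⟨x, y, rfl⟩ := hb
  obtain ⟨x', y', rfl⟩ := hc
  have h1 : u hF x' y' • (g • inf F m) = g • inf F m := by
    rw [← e, mul_smul, mul_smul, inv_smul_smul, u_smul_inf]
  have h2 : ¬ (x' = 0 ∧ y' = 0) := by
    rintro ⟨rfl, rfl⟩
    rw [u_zero_zero, conj_eq_one_iff] at e
    exact hb1 e
  have h3 := u_fix hF h2 h1
  rw [MulAction.mem_stabilizer_iff]
  exact congrArg Subtype.val h3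

/-- the involutions of `Q` -/
theorem card_inv (hm : 1 ≤ m) (hF : Fintype.card F = 2 ^ (2 * m + 1)) {n : ℕ} (hn : 2 ∣ n) [Finite (Cfsg.Sz F m)] :
    ((2 ^ (2 * m + 1)) ^ 2 + 1) * (2 ^ (2 * m + 1) - 1) ≤
      Nat.card {x : Cfsg.Sz F m | x ≠ 1 ∧ x ^ n = 1 ∧ orderOf x ∣ 2} := by
  classical
  have hq : 1 < 2 ^ (2 * m + 1) := Nat.one_lt_two_pow (by omega)
  have h1 := ti_count (B0 F m) {x : Cfsg.Sz F m | ∃ b : F, b ≠ 0 ∧ x = u hF 0 b}
    {x : Cfsg.Sz F m | x ≠ 1 ∧ x ^ n = 1 ∧ orderOf x ∣ 2} (by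
      rintro _ ⟨b, hb, rfl⟩ _ ⟨c, hc, rfl⟩ g h
      refine mem_B0_of_conj hF ⟨0, b, rfl⟩ ?_ ⟨0, c, rfl⟩ h
      rw [Ne, u_eq_one_iff]
      exact fun h => hb h.2) (by
      rintro g _ ⟨b, hb, rfl⟩
      have hu1 : u hF (0 : F) b ≠ 1 := by
        rw [Ne, u_eq_one_iff]
        exact fun h => hb h.2
      have hc := SuzukiBasic.charP_two hF
      have hu2 : u hF (0 : F) b ^ 2 = 1 := by
        rw [pow_two, u_mul, u_eq_one_iff]
        exact ⟨by simp, by simp [CharTwo.add_self_eq_zero]⟩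
      refine ⟨fun h => hu1 (conj_eq_one_iff.1 h), ?_, ?_⟩
      · obtain ⟨j, rfl⟩ := hn
        rw [conj_pow, pow_mul, hu2, one_pow, mul_one, mul_inv_cancel]
      · apply orderOf_dvd_of_pow_eq_one
        rw [conj_pow, hu2, mul_one, mul_inv_cancel])
  have hB : Nat.card {x : Cfsg.Sz F m | ∃ b : F, b ≠ 0 ∧ x = u hF 0 b} = 2 ^ (2 * m + 1) - 1 := by
    rw [← hF, ← Fintype.card_units, ← Nat.card_eq_fintype_card (α := Fˣ)]
    refine (Nat.card_congr (Equiv.ofBijective (fun k : Fˣ =>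
      (⟨u hF 0 (k : F), k, k.ne_zero, rfl⟩ : {x : Cfsg.Sz F m | ∃ b : F, b ≠ 0 ∧ x = u hF 0 b})) ⟨?_, ?_⟩)).symm
    · intro k l h
      have := congrArg Subtype.val h
      exact Units.ext (((u_eq_iff hF _ _ _ _).1 this).2)
    · rintro ⟨_, b, hb, rfl⟩
      exact ⟨Units.mk0 b hb, rfl⟩
  rw [hB, card_stabilizer_infinity hm hF, S0324.result hm hF] at h1
  have h2 : 0 < (2 ^ (2 * m + 1)) ^ 2 * (2 ^ (2 * m + 1) - 1) := Nat.mul_pos (by positivity) (by omega)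
  refine Nat.le_of_mul_le_mul_right (le_trans (le_of_eq ?_) h1) h2
  ring

/-! ### general facts -/

theorem mem_normalizer_of_cent {G : Type u} [Group G] {U : Subgroup G}
    (hU : ∀ x ∈ U, x ≠ 1 → centralizer ({x} : Set G) = U) {b c g : G} (hb : b ∈ U) (hb1 : b ≠ 1) (hc : c ∈ U)
    (e : g * b * g⁻¹ = c) : g ∈ normalizer (U : Set G) := by
  have hc1 : c ≠ 1 := by
    rintro rfl
    exact hb1 (conj_eq_one_iff.1 e)
  rw [mem_normalizer_iff]
  intro y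
  have h1 : y ∈ U ↔ y * b = b * y := by rw [← mem_cent, hU b hb hb1]
  have h2 : g * y * g⁻¹ ∈ U ↔ g * y * g⁻¹ * c = c * (g * y * g⁻¹) := by rw [← mem_cent, hU c hc hc1]
  show y ∈ U ↔ g * y * g⁻¹ ∈ U
  rw [h1, h2, ← e]
  have e1 : g * y * g⁻¹ * (g * b * g⁻¹) = g * (y * b) * g⁻¹ := by group
  have e2 : g * b * g⁻¹ * (g * y * g⁻¹) = g * (b * y) * g⁻¹ := by group
  rw [e1, e2]
  exact ⟨fun h => by rw [h], fun h => mul_left_cancel (mul_right_cancel h)⟩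

theorem two_mul_dvd {n M t : ℕ} (hn : n ∣ 2 ^ t * M) (hnt : ¬ 2 ^ t ∣ n) : n * 2 ∣ 2 ^ t * M := by
  obtain ⟨k, hk⟩ := hn
  have hk2 : 2 ∣ k := by
    by_contra h
    apply hnt
    have h1 : 2 ^ t ∣ n * k := ⟨M, hk.symm⟩
    exact (Nat.Coprime.pow_left t ((Nat.Prime.coprime_iff_not_dvd Nat.prime_two).2 h)).dvd_of_dvd_mul_right h1
  obtain ⟨j, rfl⟩ := hk2
  exact ⟨j, by rw [hk]; ring⟩

theorem u_pow_four (hF : Fintype.card F = 2 ^ (2 * m + 1)) (a b : F) : u hF a b ^ 4 = 1 := by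
  have h := congrArg (fun z : Q (F := F) (m := m) hF => (z : Cfsg.Sz F m)) (qu_pow_four hF a b)
  exact h

theorem orderOf_ne_eight (hm : 1 ≤ m) (hF : Fintype.card F = 2 ^ (2 * m + 1)) (x : Cfsg.Sz F m) :
    orderOf x ≠ 2 ^ (2 + 1) := by
  intro hx
  have hfin := finite_ovoid F m
  have hP : IsPGroup 2 (zpowers x) := IsPGroup.of_card (n := 3) (by rw [Nat.card_zpowers, hx])
  obtain ⟨P, hP'⟩ := hP.exists_le_sylow
  obtain ⟨y, rfl⟩ := MulAction.exists_smul_eq (Cfsg.Sz F m) (sylowQ hm hF) P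
  obtain ⟨a, b, hab⟩ := (mem_smul_sylowQ_iff hm hF y x).1 (hP' (mem_zpowers x))
  have h1 : (y⁻¹ * x * y⁻¹⁻¹) ^ 4 = 1 := by rw [inv_inv, hab, u_pow_four]
  rw [conj_pow, conj_eq_one_iff] at h1
  have h2 := orderOf_dvd_of_pow_eq_one h1
  rw [hx] at h2
  norm_num at h2

omit [Fintype F] in
theorem not_mem_sylow {p : ℕ} (hp2 : p ≠ 2) (hp : p.Prime) {x : Cfsg.Sz F m} (hx : orderOf x = p)
    (P : Sylow 2 (Cfsg.Sz F m)) : x ∉ (P : Subgroup (Cfsg.Sz F m)) := by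
  intro h
  obtain ⟨k, hk⟩ := P.2 ⟨x, h⟩
  have h1 : x ^ 2 ^ k = 1 := congrArg Subtype.val hk
  have h2 := orderOf_dvd_of_pow_eq_one h1
  rw [hx] at h2
  exact hp2 ((Nat.prime_dvd_prime_iff_eq hp Nat.prime_two).1 (hp.dvd_of_dvd_pow h2))

/-! ### the theorem -/

theorem tr_sz (hm : 1 ≤ m) (hF : Fintype.card F = 2 ^ (2 * m + 1)) : Tr (Cfsg.Sz F m) := by
  classical
  have hcard := S0324.result hm hF
  have hfin : Finite (Cfsg.Sz F m) := by
    apply Nat.finite_of_card_ne_zero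
    rw [hcard]
    have h1 : 1 < 2 ^ (2 * m + 1) := Nat.one_lt_two_pow (by omega)
    have h2 : 0 < 2 ^ (2 * m + 1) - 1 := by omega
    positivity
  obtain ⟨U1, -, hU1, hU1c, hU1n⟩ := S0333.result hm hF (2 ^ (2 * m + 1) + 2 ^ (m + 1) + 1) (by simp)
  obtain ⟨U2, -, hU2, hU2c, hU2n⟩ := S0333.result hm hF (2 ^ (2 * m + 1) - 2 ^ (m + 1) + 1) (by simp)
  have hT := card_T (m := m) hF
  have hN0 := card_N0 (m := m) hF
  have hQ := card_Q (m := m) hF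
  have hB := card_stabilizer_infinity hm hF
  have hmul := mul_tori m
  have t0 : 2 ^ (2 * m + 1) - 1 ∈ torusOrders m := by simp [torusOrders]
  have t1 : 2 ^ (2 * m + 1) + 2 ^ (m + 1) + 1 ∈ torusOrders m := by simp [torusOrders]
  have t2 : 2 ^ (2 * m + 1) - 2 ^ (m + 1) + 1 ∈ torusOrders m := by simp [torusOrders]
  have hr4 : 4 ≤ 2 ^ (m + 1) := by
    calc 4 = 2 ^ 2 := rfl
      _ ≤ 2 ^ (m + 1) := Nat.pow_le_pow_right (by norm_num) (by omega)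
  have hrq : 2 ^ (m + 1) * 2 ≤ 2 ^ (2 * m + 1) := by
    rw [← pow_succ]
    exact Nat.pow_le_pow_right (by norm_num) (by omega)
  have cop : ∀ a ∈ torusOrders m, ∀ b ∈ torusOrders m, a ≠ b → Nat.Coprime a b := by
    intro a ha b hb hab
    refine Nat.coprime_of_dvd fun p hp h1 h2 => hab (eq_of_prime_dvd ha hb hp h1 h2)
  have cop2 : ∀ a ∈ torusOrders m, Nat.Coprime a ((2 ^ (2 * m + 1)) ^ 2) := by
    intro a ha
    rw [← pow_mul]
    apply Nat.Coprime.pow_right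
    rw [Nat.coprime_comm, Nat.Prime.coprime_iff_not_dvd Nat.prime_two]
    exact fun h => (Nat.not_even_iff_odd.mpr (odd_of_mem ha)) (even_iff_two_dvd.mpr h)
  have c01 := cop _ t0 _ t1 (by omega)
  have c02 := cop _ t0 _ t2 (by omega)
  have c12 := cop _ t1 _ t2 (by omega)
  have d0 := cop2 _ t0
  have d1 := cop2 _ t1
  have d2 := cop2 _ t2
  -- the counts
  have C0 := fun n => count_torus (T (m := m) hF) (N0 hF) _ n hT (by
    rintro b ⟨k, rfl⟩ hb1 c ⟨l, rfl⟩ g e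
    refine mem_or hm hF (k := k) (l := l) ?_ e
    rintro rfl
    exact hb1 (h_one hF))
  have C1 := fun n => count_torus U1 (normalizer (U1 : Set (Cfsg.Sz F m))) _ n hU1 (by
    intro b hb hb1 c hc g e
    exact mem_normalizer_of_cent hU1c hb hb1 hc e)
  have C2 := fun n => count_torus U2 (normalizer (U2 : Set (Cfsg.Sz F m))) _ n hU2 (by
    intro b hb hb1 c hc g e
    exact mem_normalizer_of_cent hU2c hb hb1 hc e)
  have CP := fun n => count_torus (Q (m := m) hF) (B0 F m) _ n hQ (by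
    intro b hb hb1 c hc g e
    exact mem_B0_of_conj hF hb hb1 hc e)
  have CI := fun (n : ℕ) (hn : 2 ∣ n) => card_inv hm hF hn
  have hsum : 2 ^ (2 * m + 1) + 2 ^ (m + 1) + 1 + (2 ^ (2 * m + 1) - 2 ^ (m + 1) + 1) = 2 * (2 ^ (2 * m + 1) + 1) := by
    omega
  have hA0 : 2 ^ (2 * m + 1) - 1 + 1 = 2 ^ (2 * m + 1) := by omega
  have hq8 : 8 ≤ 2 ^ (2 * m + 1) := by omega
  have hA1le : 2 ^ (2 * m + 1) + 2 ^ (m + 1) + 1 ≤ (2 ^ (2 * m + 1)) ^ 2 := by nlinarith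
  have hq2 : (2 ^ (2 * m + 1)) ^ 2 = 2 ^ ((2 * m + 1) * 2) := by rw [pow_mul]
  intro n hn hc
  rcases Nat.even_or_odd n with hev | hodd
  · have h2n : 2 ∣ n := hev.two_dvd
    by_cases h4 : 4 ∣ n
    · by_cases hqn : (2 ^ (2 * m + 1)) ^ 2 ∣ n
      · -- the main case
        right
        have D0 := C0 n
        have D1 := C1 n
        have D2 := C2 n
        have DP := CP n
        have hle := four_le (n := n) {x : Cfsg.Sz F m | x ≠ 1 ∧ x ^ n = 1 ∧ orderOf x ∣ 2 ^ (2 * m + 1) - 1}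
          {x : Cfsg.Sz F m | x ≠ 1 ∧ x ^ n = 1 ∧ orderOf x ∣ 2 ^ (2 * m + 1) + 2 ^ (m + 1) + 1}
          {x : Cfsg.Sz F m | x ≠ 1 ∧ x ^ n = 1 ∧ orderOf x ∣ 2 ^ (2 * m + 1) - 2 ^ (m + 1) + 1}
          {x : Cfsg.Sz F m | x ≠ 1 ∧ x ^ n = 1 ∧ orderOf x ∣ (2 ^ (2 * m + 1)) ^ 2}
          (fun y hy => ⟨hy.1, hy.2.1⟩) (fun y hy => ⟨hy.1, hy.2.1⟩) (fun y hy => ⟨hy.1, hy.2.1⟩)
          (fun y hy => ⟨hy.1, hy.2.1⟩) (disjoint_of_coprime c01) (disjoint_of_coprime c02) (disjoint_of_coprime c12)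
          (disjoint_of_coprime d0) (disjoint_of_coprime d1) (disjoint_of_coprime d2)
        rw [Nat.gcd_eq_right hqn, hB] at DP
        rw [hU1n] at D1
        rw [hU2n] at D2
        rw [hc] at hle
        have D0' := D0.trans (Nat.mul_le_mul_left _ hN0)
        rw [hcard] at hn D0' D1 D2 DP ⊢
        exact final_main hA0 (by omega) hsum hmul c01 c02 c12 d0 d1 d2 hn hqn D0' D1 D2 DP hle
      · exfalso
        have hd : n * 2 ∣ Nat.card (Cfsg.Sz F m) := by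
          rw [hcard, mul_assoc, hq2] at hn ⊢
          rw [hq2] at hqn
          exact two_mul_dvd hn hqn
        exact jump (e := 2) Nat.prime_two h4 (orderOf_ne_eight hm hF) hd hc
    · exfalso
      have D0' := (C0 n).trans (Nat.mul_le_mul_left _ hN0)
      have DI := CI n h2n
      have hle1 := card_add_one_le (n := n) {x : Cfsg.Sz F m | x ≠ 1 ∧ x ^ n = 1 ∧ orderOf x ∣ 2}
        (fun y hy => ⟨hy.1, hy.2.1⟩)
      have hle0 := card_add_one_le (n := n) {x : Cfsg.Sz F m | x ≠ 1 ∧ x ^ n = 1 ∧ orderOf x ∣ 2 ^ (2 * m + 1) - 1}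
        (fun y hy => ⟨hy.1, hy.2.1⟩)
      rw [hc] at hle1 hle0
      rw [hcard] at hn D0'
      exact final_two hA0 hq8 h2n h4 rfl hn DI hle1 D0' hle0
  · left
    by_contra hn1
    obtain ⟨p, hp, hpn⟩ := Nat.exists_prime_and_dvd hn1
    have hp2 : p ≠ 2 := by
      rintro rfl
      exact (Nat.not_even_iff_odd.mpr hodd) (even_iff_two_dvd.mpr hpn)
    have : Fact p.Prime := ⟨hp⟩
    obtain ⟨x, hx⟩ := exists_prime_orderOf_dvd_card' (G := Cfsg.Sz F m) p (hpn.trans hn)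
    have hx1 : x ≠ 1 := by
      rintro rfl
      rw [orderOf_one] at hx
      exact hp.one_lt.ne hx
    obtain ⟨k, hk⟩ := hn
    have h1 := lt_cent hk.symm hc hx1 (orderOf_dvd_iff_pow_eq_one.1 (by rw [hx]; exact hpn))
    rcases sylow_or_torus hm hF hx1 with ⟨P, hP⟩ | ⟨-, h2⟩
    · exact not_mem_sylow hp2 hp hx P hP
    · have h3 : Nat.card (centralizer ({x} : Set (Cfsg.Sz F m))) ≤ 2 ^ (2 * m + 1) + 2 ^ (m + 1) + 1 := by
        rcases (mem_torusOrders_iff m _).1 h2 with h | h | h <;> omega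
      have h4 : (2 ^ (2 * m + 1)) ^ 2 ∣ k := by
        have h5 : (2 ^ (2 * m + 1)) ^ 2 ∣ n * k := by
          rw [← hk, hcard, mul_assoc]
          exact dvd_mul_right _ _
        refine Nat.Coprime.dvd_of_dvd_mul_left ?_ h5
        rw [← pow_mul]
        apply Nat.Coprime.pow_left
        rw [Nat.Prime.coprime_iff_not_dvd Nat.prime_two]
        exact fun h => (Nat.not_even_iff_odd.mpr hodd) (even_iff_two_dvd.mpr h)
      have hk0 : 0 < k := Nat.pos_of_ne_zero (by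
        rintro rfl
        rw [mul_zero] at hk
        exact Nat.card_pos.ne' hk)
      have h5 := Nat.le_of_dvd hk0 h4
      omega

theorem tr {S : Type u} [Group S] (hS : Cfsg.Lie.IsoSuzuki S) : Tr S := by
  obtain ⟨F, _, _, m, hm, hF, ⟨e⟩⟩ := hS
  obtain ⟨e'⟩ := Cfsg.Agent.OddCyclic.ClaimC.SzIso.iso hm hF
  exact Tr.congr (e.trans e'.symm) (tr_sz hm hF)

end Cfsg.Agent.H20.FrobSz
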