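import Mathlib
import Cfsg.Agent.H20.FrobFix
import Cfsg.Agent.SmallSimple.S1000.PSLFacts
import Cfsg.Agent.S0278
import Cfsg.Agent.S0242

/-!
# The groups `PSL₃(3)` and `PSU₃(3)` have only the trivial solutions
-/

set_option autoImplicit false

universe u v

namespace Cfsg.Agent.H20.FrobThree

open Subgroup Matrix Cfsg.Agent.H20.FrobReduce Cfsg.Agent.H20.FrobTools Cfsg.Agent.H20.FrobFix

open scoped MatrixGroups

variable {F : Type v} [Field F] [Fintype F]

/-- the action of a subgroup of `SL₃(F)` on the column vectors -/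
instance act (H : Subgroup SL(3, F)) : DistribMulAction H (Fin 3 → F) :=
  DistribMulAction.compHom (Fin 3 → F)
    ((DistribMulAction.toAddMonoidEnd ((Fin 3 → F) ≃ₗ[F] (Fin 3 → F)) (Fin 3 → F)).comp
      ((Matrix.SpecialLinearGroup.toLin' (n := Fin 3) (R := F)).comp H.subtype))

omit [Fintype F] in
theorem smul_def {H : Subgroup SL(3, F)} (g : H) (w : Fin 3 → F) :
    g • w = ((g : SL(3, F)) : Matrix (Fin 3) (Fin 3) F) *ᵥ w := rfl

theorem charP_three {f : ℕ} (_ : f ≠ 0) (hF : Fintype.card F = 3 ^ f) : CharP F 3 := by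
  obtain ⟨p, hp⟩ := CharP.exists F
  obtain ⟨n, hpp, hn⟩ := FiniteField.card F p
  have h1 : p ∣ 3 ^ f := by
    rw [← hF, hn]
    exact dvd_pow_self p n.ne_zero
  have h2 : p = 3 := (Nat.prime_dvd_prime_iff_eq hpp Nat.prime_three).1 (hpp.dvd_of_dvd_pow h1)
  rw [← h2]
  exact hp

theorem hyp {f p : ℕ} (hf : f ≠ 0) (hF : Fintype.card F = 3 ^ f) (hp : p.Prime) (h1 : 3 ^ (f * 3) ≡ 1 [MOD p])
    (h2 : ∀ d ≤ f * 3, 3 ^ d ≡ 1 [MOD p] → d = 0 ∨ d = f * 3) (H : Subgroup SL(3, F)) :
    Hyp H (Fin 3 → F) (f * 3) p where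
  prime := hp
  card := by rw [Nat.card_eq_fintype_card, Fintype.card_fun, hF, Fintype.card_fin, pow_mul]
  pos := by omega
  one := h1
  order := h2
  faith g hg := by
    apply Subtype.ext
    apply Subtype.ext
    refine Matrix.mulVec_injective ?_
    funext w
    rw [← smul_def, hg w]
    show w = ((1 : SL(3, F)) : Matrix (Fin 3) (Fin 3) F) *ᵥ w
    rw [Matrix.SpecialLinearGroup.coe_one, Matrix.one_mulVec]
  neg g hg := by
    have hc := charP_three hf hF
    have h3 : ((g : SL(3, F)) : Matrix (Fin 3) (Fin 3) F) = -1 := by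
      refine Matrix.mulVec_injective ?_
      funext w
      rw [← smul_def, hg w, Matrix.neg_mulVec, Matrix.one_mulVec]
    have h4 := (g : SL(3, F)).2
    rw [h3, Matrix.det_neg, Matrix.det_one, Fintype.card_fin, mul_one] at h4
    have h5 : (2 : F) = 0 := by linear_combination -h4
    have h6 : (3 : F) = 0 := by exact_mod_cast CharP.cast_eq_zero F 3
    have h7 : (1 : F) = 0 := by linear_combination h6 - h5
    exact one_ne_zero h7

theorem pow_three {f : ℕ} (hf : f ≠ 0) (hF : Fintype.card F = 3 ^ f) {g : SL(3, F)} {m : ℕ} (hg : g ^ 3 ^ m = 1) :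
    g ^ 3 = 1 := by
  have hc := charP_three hf hF
  have : Fact (Nat.Prime 3) := ⟨Nat.prime_three⟩
  set M : Matrix (Fin 3) (Fin 3) F := (g : Matrix (Fin 3) (Fin 3) F) with hM
  have h1 : M ^ 3 ^ m = 1 := by
    rw [hM, ← Matrix.SpecialLinearGroup.coe_pow, hg, Matrix.SpecialLinearGroup.coe_one]
  have h2 : IsNilpotent (M - 1) := by
    refine ⟨3 ^ m, ?_⟩
    rw [sub_pow_char_pow_of_commute (p := 3) m (Commute.one_right M), h1, one_pow, sub_self]
  have h3 := Matrix.isNilpotent_charpoly_sub_pow_of_isNilpotent h2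
  rw [Fintype.card_fin] at h3
  have h4 := h3.eq_zero
  have h5 := Matrix.aeval_self_charpoly (M - 1)
  rw [sub_eq_zero.1 h4, map_pow, Polynomial.aeval_X] at h5
  have h6 := sub_pow_char_of_commute (p := 3) (Commute.one_right M)
  rw [h5, one_pow] at h6
  apply Subtype.ext
  rw [Matrix.SpecialLinearGroup.coe_pow, Matrix.SpecialLinearGroup.coe_one]
  exact (sub_eq_zero.1 h6.symm)

theorem equiv_of_card {H : Type v} [Group H] [Finite H] (h : Nat.card (H ⧸ center H) = Nat.card H) :
    Nonempty (H ⧸ center H ≃* H) := by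
  have h1 := card_eq_card_quotient_mul_card_subgroup (center H)
  rw [h] at h1
  have h2 : Nat.card (center H) = 1 := by
    have h3 : 0 < Nat.card H := Nat.card_pos
    exact Nat.eq_of_mul_eq_mul_left h3 (by rw [mul_one]; exact h1.symm)
  have h4 : center H = ⊥ := (center H).eq_bot_of_card_eq h2
  exact ⟨(QuotientGroup.quotientMulEquivOfEq h4).trans QuotientGroup.quotientBot⟩

/-! ### `PSL₃(3)` -/

theorem divsL : ∀ n ∈ Finset.range 433, n ∣ 432 → n % 13 = 1 → n = 1 ∨ n = 27 ∨ n = 144 := by decide +kernel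

theorem trL_aux {S : Type u} [Group S] [Finite S] [IsSimpleGroup S] (hcard : Nat.card S = 5616)
    (hC : ∀ x : S, orderOf x = 13 → Nat.card (centralizer ({x} : Set S)) = 13)
    (h27 : ∀ x : S, orderOf x ≠ 3 ^ (2 + 1)) : Tr S := by
  have hna : ¬ ∀ a b : S, a * b = b * a := by
    apply not_comm
    rw [hcard]
    norm_num
  have h2 : ∀ x : S, orderOf x ≠ 2 ^ (3 + 1) := not_cyclic_two hna (by norm_num) (by rw [hcard]; norm_num)
  have h13 : Nat.Prime 13 := by norm_num
  have : Fact (Nat.Prime 13) := ⟨h13⟩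
  obtain ⟨x, hx⟩ := exists_prime_orderOf_dvd_card' (G := S) 13 (by rw [hcard]; norm_num)
  obtain ⟨w, i, hw, hi, hN, hwi⟩ := exists_normalizer h13 hx (hC x hx) (by rw [hcard]; norm_num)
  have hw3 : w = 3 := by
    rw [hcard] at hwi
    have h4 : w ≤ 12 := Nat.le_of_dvd (by norm_num) hw
    have h5 : i % 13 = 1 := hi
    interval_cases w <;> omega
  subst hw3
  intro n hn hc
  obtain ⟨k, hk⟩ := hn
  by_cases h7 : 13 ∣ n
  · right
    have hk3 := k_le h13 hx hN (by norm_num) hk.symm hc h7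
    rw [hcard] at hk ⊢
    interval_cases k
    · omega
    · omega
    · exfalso
      obtain rfl : n = 2808 := by omega
      exact jump (e := 3) Nat.prime_two (by norm_num) h2 (by rw [hcard]) hc
    · exfalso
      obtain rfl : n = 1872 := by omega
      exact jump (e := 2) Nat.prime_three (by norm_num) h27 (by rw [hcard]) hc
  · left
    have h8 := modEq_one (n := n) h13 hx (hC x hx) h7
    rw [hc] at h8
    rw [hcard] at hk
    have hd : n ∣ 432 := (Nat.Coprime.symm ((Nat.Prime.coprime_iff_not_dvd h13).2 h7)).dvd_of_dvd_mul_right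
      (show n ∣ 432 * 13 from ⟨k, by omega⟩)
    have hnle := Nat.le_of_dvd (by norm_num) hd
    rcases divsL n (Finset.mem_range.2 (by omega)) hd h8 with h | rfl | rfl
    · exact h
    · have := prime_pow hna (a := 3) Nat.prime_three (by rw [hcard]; norm_num) hc
      omega
    · exact absurd hc (jump (e := 2) Nat.prime_three (by norm_num) h27 (by rw [hcard]; norm_num))

theorem trL {S : Type u} [Group S] [Finite S] [IsSimpleGroup S] (hF : Fintype.card F = 3)
    (e : S ≃* Matrix.ProjectiveSpecialLinearGroup (Fin 3) F) : Tr S := by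
  have hP := Cfsg.Agent.SmallSimple.PSLFacts.card_psl_three_three hF
  have hcard : Nat.card S = 5616 := by rw [Nat.card_congr e.toEquiv, hP]
  have hSL : Nat.card SL(3, F) = 5616 := by
    have h1 := Cfsg.Agent.S0242.result hF 3 (by norm_num)
    rw [Fin.prod_univ_three] at h1
    norm_num at h1
    omega
  obtain ⟨e1⟩ : Nonempty (Matrix.ProjectiveSpecialLinearGroup (Fin 3) F ≃* SL(3, F)) :=
    equiv_of_card (H := SL(3, F)) (by rw [hSL]; exact hP)
  have e2 : S ≃* (⊤ : Subgroup SL(3, F)) := (e.trans e1).trans topEquiv.symm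
  have hH : Nat.card (⊤ : Subgroup SL(3, F)) = 2 ^ 4 * 3 ^ 3 * 13 := by
    rw [card_top, hSL]
    norm_num
  have hh := hyp (F := F) (f := 1) (p := 13) one_ne_zero (by rw [hF, pow_one]) (by norm_num) (by decide) (by
    intro d hd h
    interval_cases d <;> revert h <;> decide) (⊤ : Subgroup SL(3, F))
  refine trL_aux hcard (fun x hx => ?_) (fun x hx => ?_)
  · rw [card_centralizer_congr e2]
    exact hh.card_cent hH (by rw [MulEquiv.orderOf_eq, hx])
  · have h1 : orderOf ((e.trans e1) x) = 3 ^ 3 := by rw [MulEquiv.orderOf_eq, hx]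
    have h2 := pow_three (f := 1) (F := F) one_ne_zero (by rw [hF, pow_one]) (g := (e.trans e1) x) (m := 3)
      (by rw [← h1, pow_orderOf_eq_one])
    have h3 := orderOf_dvd_of_pow_eq_one h2
    rw [h1] at h3
    norm_num at h3

/-! ### `PSU₃(3)` -/

theorem divsU : ∀ n ∈ Finset.range 865, n ∣ 864 → n % 7 = 1 → n = 1 ∨ n = 8 ∨ n = 36 ∨ n = 288 := by decide +kernel

theorem trU_aux {S : Type u} [Group S] [Finite S] [IsSimpleGroup S] (hcard : Nat.card S = 6048)
    (hC : ∀ x : S, orderOf x = 7 → Nat.card (centralizer ({x} : Set S)) = 7)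
    (h27 : ∀ x : S, orderOf x ≠ 3 ^ (2 + 1)) : Tr S := by
  have hna : ¬ ∀ a b : S, a * b = b * a := by
    apply not_comm
    rw [hcard]
    norm_num
  have h2 : ∀ x : S, orderOf x ≠ 2 ^ (4 + 1) := not_cyclic_two hna (by norm_num) (by rw [hcard]; norm_num)
  have h13 : Nat.Prime 7 := by norm_num
  have : Fact (Nat.Prime 7) := ⟨h13⟩
  obtain ⟨x, hx⟩ := exists_prime_orderOf_dvd_card' (G := S) 7 (by rw [hcard]; norm_num)
  obtain ⟨w, i, hw, hi, hN, hwi⟩ := exists_normalizer h13 hx (hC x hx) (by rw [hcard]; norm_num)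
  have hw3 : w = 3 := by
    rw [hcard] at hwi
    have h4 : w ≤ 6 := Nat.le_of_dvd (by norm_num) hw
    have h5 : i % 7 = 1 := hi
    interval_cases w <;> omega
  subst hw3
  intro n hn hc
  obtain ⟨k, hk⟩ := hn
  by_cases h7 : 7 ∣ n
  · right
    have hk3 := k_le h13 hx hN (by norm_num) hk.symm hc h7
    rw [hcard] at hk ⊢
    interval_cases k
    · omega
    · omega
    · exfalso
      obtain rfl : n = 3024 := by omega
      exact jump (e := 4) Nat.prime_two (by norm_num) h2 (by rw [hcard]) hc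
    · exfalso
      obtain rfl : n = 2016 := by omega
      exact jump (e := 2) Nat.prime_three (by norm_num) h27 (by rw [hcard]) hc
  · left
    have h8 := modEq_one (n := n) h13 hx (hC x hx) h7
    rw [hc] at h8
    rw [hcard] at hk
    have hd : n ∣ 864 := (Nat.Coprime.symm ((Nat.Prime.coprime_iff_not_dvd h13).2 h7)).dvd_of_dvd_mul_right
      (show n ∣ 864 * 7 from ⟨k, by omega⟩)
    have hnle := Nat.le_of_dvd (by norm_num) hd
    rcases divsU n (Finset.mem_range.2 (by omega)) hd h8 with h | rfl | rfl | rfl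
    · exact h
    · have := prime_pow hna (a := 3) Nat.prime_two (by rw [hcard]; norm_num) hc
      omega
    · exact absurd hc (jump (e := 2) Nat.prime_three (by norm_num) h27 (by rw [hcard]; norm_num))
    · exact absurd hc (jump (e := 2) Nat.prime_three (by norm_num) h27 (by rw [hcard]; norm_num))

theorem trU {S : Type u} [Group S] [Finite S] [IsSimpleGroup S] (hF : Fintype.card F = 9)
    (e : S ≃* Cfsg.PSU 3 F 3) : Tr S := by
  have hP := Cfsg.Agent.SmallSimple.PSLFacts.card_psu_three_three hF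
  have hcard : Nat.card S = 6048 := by rw [Nat.card_congr e.toEquiv, hP]
  have hSU : Nat.card (Cfsg.SU 3 F 3) = 6048 := by
    have h := Cfsg.Agent.S0278.result (F := F) (q := 3) hF 3 (by norm_num)
    norm_num [Finset.prod_range_succ, Nat.even_iff] at h
    omega
  obtain ⟨e1⟩ : Nonempty (Cfsg.PSU 3 F 3 ≃* Cfsg.SU 3 F 3) :=
    equiv_of_card (H := Cfsg.SU 3 F 3) (by rw [hSU]; exact hP)
  have e2 : S ≃* Cfsg.SU 3 F 3 := e.trans e1
  have hH : Nat.card (Cfsg.SU 3 F 3) = 2 ^ 5 * 3 ^ 3 * 7 := by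
    rw [hSU]
    norm_num
  have hh := hyp (F := F) (f := 2) (p := 7) two_ne_zero (by rw [hF]; norm_num) (by norm_num) (by decide) (by
    intro d hd h
    interval_cases d <;> revert h <;> decide) (Cfsg.SU 3 F 3)
  refine trU_aux hcard (fun x hx => ?_) (fun x hx => ?_)
  · rw [card_centralizer_congr e2]
    exact hh.card_cent hH (by rw [MulEquiv.orderOf_eq, hx])
  · have h1 : orderOf ((e2 x : Cfsg.SU 3 F 3) : SL(3, F)) = 3 ^ 3 := by rw [orderOf_coe, MulEquiv.orderOf_eq, hx]
    have h2 := pow_three (f := 2) (F := F) two_ne_zero (by rw [hF]; norm_num)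
      (g := ((e2 x : Cfsg.SU 3 F 3) : SL(3, F))) (m := 3) (by rw [← h1, pow_orderOf_eq_one])
    have h3 := orderOf_dvd_of_pow_eq_one h2
    rw [h1] at h3
    norm_num at h3

end Cfsg.Agent.H20.FrobThree
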