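import Mathlib
import Cfsg.Agent.ClassicalGeometry.PSL2Basic
import Cfsg.Agent.BenderMod.Arith
import Cfsg.Agent.H20.FrobReduce

/-!
# Counting solutions of `x ^ n = 1` in `PSL(2, q)`

* `card_trSet` : the number of matrices in `SL(2,q)` with trace `t`.
* `cnt_lower` : the lower bound for the number of solutions of `x ^ n = 1` in `PSL(2,q)`.
* `frob` : if `n` divides `|PSL(2,q)|`, `q ≥ 4`, and `x ^ n = 1` has exactly `n` solutions, then
  `n = 1` or `n = |PSL(2,q)|`.
-/

set_option autoImplicit false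

namespace Cfsg.Agent.H20.PSLTwoCount

open Subgroup

variable {F : Type*} [Field F]

/-- matrices with given trace -/
def trSet (t : F) : Set (Matrix.SpecialLinearGroup (Fin 2) F) := {A | A 0 0 + A 1 1 = t}

section count

variable [Fintype F]

theorem card_mul_eq [DecidableEq F] (b e : F) : Nat.card {c : F // b * c = e} =
    if b = 0 then (if e = 0 then Fintype.card F else 0) else 1 := by
  classical
  by_cases hb : b = 0
  · rw [if_pos hb]
    by_cases he : e = 0
    · rw [if_pos he, ← Nat.card_eq_fintype_card]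
      exact Nat.card_congr (Equiv.subtypeUnivEquiv fun c => by rw [hb, he, zero_mul])
    · rw [if_neg he]
      have : IsEmpty {c : F // b * c = e} := ⟨fun ⟨c, hc⟩ => he (by rw [← hc, hb, zero_mul])⟩
      exact Nat.card_of_isEmpty
  · rw [if_neg hb, Nat.card_eq_one_iff_unique]
    refine ⟨⟨fun x y => Subtype.ext (mul_left_cancel₀ hb (x.2.trans y.2.symm))⟩, ⟨⟨b⁻¹ * e, ?_⟩⟩⟩
    rw [mul_inv_cancel_left₀ hb]

theorem card_prod_eq [DecidableEq F] (e : F) : Nat.card {p : F × F // p.1 * p.2 = e} =
    (Fintype.card F - 1) + if e = 0 then Fintype.card F else 0 := by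
  classical
  have h1 : Nat.card {p : F × F // p.1 * p.2 = e} = Nat.card (Σ b : F, {c : F // b * c = e}) := by
    refine Nat.card_congr ⟨fun p => ⟨p.1.1, p.1.2, p.2⟩, fun s => ⟨(s.1, s.2.1), s.2.2⟩, fun _ => rfl, fun _ => rfl⟩
  rw [h1, Nat.card_sigma]
  simp_rw [card_mul_eq]
  rw [Finset.sum_ite]
  rw [Finset.filter_eq' Finset.univ (0 : F), if_pos (Finset.mem_univ _), Finset.sum_singleton, Finset.sum_const,
    smul_eq_mul, mul_one, Finset.filter_ne' Finset.univ (0 : F), Finset.card_erase_of_mem (Finset.mem_univ _),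
    Finset.card_univ, add_comm]

/-- the number of matrices of trace `t` -/
theorem card_trSet [DecidableEq F] (t : F) : Nat.card (trSet t) =
    Fintype.card F * (Fintype.card F - 1) +
      (Finset.univ.filter (fun a : F => a * (t - a) - 1 = 0)).card * Fintype.card F := by
  have h1 : Nat.card (trSet t) = Nat.card (Σ a : F, {p : F × F // p.1 * p.2 = a * (t - a) - 1}) := by
    refine Nat.card_congr ⟨fun A => ⟨A.1 0 0, (A.1 0 1, A.1 1 0), ?_⟩, fun s => ⟨⟨!![s.1, s.2.1.1; s.2.1.2, t - s.1], ?_⟩, ?_⟩,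
      ?_, ?_⟩
    · have hA : A.1 0 0 + A.1 1 1 = t := A.2
      have hd := A.1.2
      rw [Matrix.det_fin_two] at hd
      change (A.1 0 1) * (A.1 1 0) = _
      have : t - A.1 0 0 = A.1 1 1 := by linear_combination -hA
      rw [this]
      linear_combination -hd
    · rw [Matrix.det_fin_two_of]
      have := s.2.2
      linear_combination -this
    · change s.1 + (t - s.1) = t
      ring
    · intro A
      have hA : A.1 0 0 + A.1 1 1 = t := A.2
      apply Subtype.ext
      apply Subtype.ext
      ext i j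
      fin_cases i <;> fin_cases j
      · rfl
      · rfl
      · rfl
      · change t - A.1 0 0 = A.1 1 1
        linear_combination -hA
    · intro s
      rfl
  rw [h1, Nat.card_sigma]
  simp_rw [card_prod_eq]
  rw [Finset.sum_add_distrib, Finset.sum_const, Finset.card_univ, smul_eq_mul, Finset.sum_ite, Finset.sum_const,
    Finset.sum_const_zero, add_zero, smul_eq_mul]

end count

/-- powers of a matrix of trace `x + x⁻¹` -/
theorem pow_eq {K : Type*} [Field K] (M : Matrix (Fin 2) (Fin 2) K) (hd : M.det = 1) {x : K} (hx : x ≠ 0)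
    (hxx : x ≠ x⁻¹) (ht : M 0 0 + M 1 1 = x + x⁻¹) {n : ℕ} {ε : K} (hε : ε * ε = 1) (hn : x ^ n = ε) :
    M ^ n = ε • (1 : Matrix (Fin 2) (Fin 2) K) := by
  have hCH : M * M = (x + x⁻¹) • M - 1 := by
    rw [Matrix.det_fin_two] at hd
    ext i j
    fin_cases i <;> fin_cases j <;> simp [Matrix.mul_apply, Fin.sum_univ_two] <;> rw [← ht] <;>
      first | linear_combination -hd | ring
  obtain ⟨B, hB⟩ : ∃ B, B = M - x • (1 : Matrix (Fin 2) (Fin 2) K) := ⟨_, rfl⟩
  obtain ⟨C, hC⟩ : ∃ C, C = M - x⁻¹ • (1 : Matrix (Fin 2) (Fin 2) K) := ⟨_, rfl⟩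
  have hMB : M * B = x⁻¹ • B := by
    rw [hB, mul_sub, hCH, mul_smul_comm, mul_one, smul_sub, smul_smul, inv_mul_cancel₀ hx, one_smul, add_smul]
    abel
  have hMC : M * C = x • C := by
    rw [hC, mul_sub, hCH, mul_smul_comm, mul_one, smul_sub, smul_smul, mul_inv_cancel₀ hx, one_smul, add_smul]
    abel
  have hMBk : ∀ k : ℕ, M ^ k * B = (x⁻¹) ^ k • B := by
    intro k
    induction k with
    | zero => simp
    | succ k ih => rw [pow_succ, mul_assoc, hMB, mul_smul_comm, ih, smul_smul, ← pow_succ']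
  have hMCk : ∀ k : ℕ, M ^ k * C = x ^ k • C := by
    intro k
    induction k with
    | zero => simp
    | succ k ih => rw [pow_succ, mul_assoc, hMC, mul_smul_comm, ih, smul_smul, ← pow_succ']
  have hCB : C - B = (x - x⁻¹) • (1 : Matrix (Fin 2) (Fin 2) K) := by
    rw [hB, hC, sub_smul]; abel
  have hε' : (x⁻¹) ^ n = ε := by
    rw [inv_pow, hn]
    exact inv_eq_of_mul_eq_one_left hε
  have h1 : M ^ n * (C - B) = ε • (C - B) := by
    rw [mul_sub, hMCk, hMBk, hn, hε', smul_sub]
  rw [hCB, mul_smul_comm, mul_one, smul_smul] at h1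
  have h2 : x - x⁻¹ ≠ 0 := sub_ne_zero.2 hxx
  have h3 := congrArg (fun N => (x - x⁻¹)⁻¹ • N) h1
  simp only [smul_smul] at h3
  rw [inv_mul_cancel₀ h2, one_smul] at h3
  rw [h3, mul_comm ε, ← mul_assoc, inv_mul_cancel₀ h2, one_mul]

/-- version for `SL(2,F)` and an extension field -/
theorem pow_mem_center {K : Type*} [Field K] [Algebra F K] {t : F} {x : K} (hx : x ≠ 0) (hxx : x ≠ x⁻¹)
    (ht : algebraMap F K t = x + x⁻¹) {n : ℕ} (hn : x ^ n = 1 ∨ x ^ n = -1) {A : Matrix.SpecialLinearGroup (Fin 2) F}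
    (hA : A ∈ trSet t) : A ^ n ∈ center (Matrix.SpecialLinearGroup (Fin 2) F) := by
  have hA' : A 0 0 + A 1 1 = t := hA
  have hinj : Function.Injective (algebraMap F K) := (algebraMap F K).injective
  have key : ∀ ε : F, ε * ε = 1 → x ^ n = algebraMap F K ε →
      ((A ^ n : Matrix.SpecialLinearGroup (Fin 2) F) : Matrix (Fin 2) (Fin 2) F) = ε • (1 : Matrix (Fin 2) (Fin 2) F) := by
    intro ε hε hxn
    have h1 := pow_eq ((A : Matrix (Fin 2) (Fin 2) F).map (algebraMap F K))
      (by
        have := A.2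
        rw [Matrix.det_fin_two] at this ⊢
        simp only [Matrix.map_apply]
        rw [← map_mul, ← map_mul, ← map_sub, this, map_one]) hx hxx
      (by
        simp only [Matrix.map_apply]
        rw [← map_add, ← ht]
        exact congrArg _ hA') (ε := algebraMap F K ε) (by rw [← map_mul, hε, map_one]) hxn
    rw [Matrix.SpecialLinearGroup.coe_pow]
    have h2 : ((A : Matrix (Fin 2) (Fin 2) F) ^ n).map (algebraMap F K) =
        (ε • (1 : Matrix (Fin 2) (Fin 2) F)).map (algebraMap F K) := by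
      rw [Matrix.map_pow, h1]
      ext i j
      fin_cases i <;> fin_cases j <;> simp
    ext i j
    have h3 := congrFun (congrFun h2 i) j
    exact hinj h3
  rw [Cfsg.Agent.ClassicalGeometry.PSL2Basic.mem_center_SL2_iff]
  rcases hn with hn | hn
  · left
    apply Subtype.ext
    rw [key 1 (one_mul 1) (by rw [hn, map_one]), one_smul]
    rfl
  · right
    apply Subtype.ext
    rw [key (-1) (by ring) (by rw [hn, map_neg, map_one]), neg_smul, one_smul]
    simp


/-! ### Traces of roots of unity -/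

section traces

variable [Fintype F]

theorem add_pow_q (x y : AlgebraicClosure F) : (x + y) ^ Fintype.card F = x ^ Fintype.card F + y ^ Fintype.card F := by
  exact map_add (FiniteField.frobeniusAlgHom F (AlgebraicClosure F)) x y

open Classical in
/-- the `k`-th roots of unity whose square is not `1` -/
noncomputable def X (F : Type*) [Field F] (k : ℕ) : Finset (AlgebraicClosure F) :=
  (Polynomial.nthRootsFinset k (1 : AlgebraicClosure F)).filter (fun x => x * x ≠ 1)

open Classical in
/-- the traces -/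
noncomputable def T (F : Type*) [Field F] [Fintype F] (k : ℕ) : Finset F :=
  Finset.univ.filter (fun t => ∃ x ∈ X F k, algebraMap F (AlgebraicClosure F) t = x + x⁻¹)

theorem mem_X {k : ℕ} (hk : 0 < k) {x : AlgebraicClosure F} : x ∈ X F k ↔ x ^ k = 1 ∧ x * x ≠ 1 := by
  simp only [X, Finset.mem_filter, Polynomial.mem_nthRootsFinset hk]

theorem mem_T {k : ℕ} {t : F} : t ∈ T F k ↔ ∃ x ∈ X F k, algebraMap F (AlgebraicClosure F) t = x + x⁻¹ := by
  simp only [T, Finset.mem_filter, Finset.mem_univ, true_and]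

theorem ne_zero_of_mem {k : ℕ} (hk : 0 < k) {x : AlgebraicClosure F} (hx : x ^ k = 1) : x ≠ 0 := by
  rintro rfl
  rw [zero_pow hk.ne'] at hx
  exact zero_ne_one hx

theorem card_X {k d : ℕ} (hk : (k : F) ≠ 0) (hd : (d = 2 ∧ (2 : F) ≠ 0) ∨ (d = 1 ∧ (2 : F) = 0)) :
    k ≤ (X F k).card + d := by
  classical
  have hk0 : 0 < k := Nat.pos_of_ne_zero (by rintro rfl; simp at hk)
  have : NeZero (k : F) := ⟨hk⟩
  have : NeZero (k : AlgebraicClosure F) := ⟨by
    intro h
    apply hk
    apply (algebraMap F (AlgebraicClosure F)).injective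
    rw [map_natCast, h, map_zero]⟩
  obtain ⟨ζ, hζ⟩ := HasEnoughRootsOfUnity.exists_primitiveRoot (AlgebraicClosure F) k
  have h1 := hζ.card_nthRootsFinset
  have h2 := Finset.card_filter_add_card_filter_not (s := Polynomial.nthRootsFinset k (1 : AlgebraicClosure F))
    (fun x => x * x ≠ 1)
  have h3 : ((Polynomial.nthRootsFinset k (1 : AlgebraicClosure F)).filter (fun x => ¬ x * x ≠ 1)).card ≤ d := by
    have h4 : (Polynomial.nthRootsFinset k (1 : AlgebraicClosure F)).filter (fun x => ¬ x * x ≠ 1) ⊆ {1, -1} := by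
      intro x hx
      rw [Finset.mem_filter] at hx
      have h5 : x * x = 1 := not_not.1 hx.2
      rw [Finset.mem_insert, Finset.mem_singleton]
      have h6 : (x - 1) * (x + 1) = 0 := by linear_combination h5
      rcases mul_eq_zero.1 h6 with h7 | h7
      · left; linear_combination h7
      · right; linear_combination h7
    refine (Finset.card_le_card h4).trans ?_
    rcases hd with ⟨rfl, -⟩ | ⟨rfl, h2'⟩
    · exact Finset.card_le_two
    · have h8 : (-1 : AlgebraicClosure F) = 1 := by
        have h9 : (2 : AlgebraicClosure F) = 0 := by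
          rw [← map_ofNat (algebraMap F (AlgebraicClosure F)) 2, h2', map_zero]
        linear_combination -h9
      rw [h8]
      simp
  rw [h1] at h2
  have h4 : (X F k).card = ((Polynomial.nthRootsFinset k (1 : AlgebraicClosure F)).filter (fun x => x * x ≠ 1)).card := by
    rw [X]
  omega

theorem add_inv_eq {K : Type*} [Field K] {x y : K} (hx : x ≠ 0) (hy : y ≠ 0) (h : x + x⁻¹ = y + y⁻¹) :
    x = y ∨ x = y⁻¹ := by
  have h1 : (x - y) * (x * y - 1) = 0 := by
    field_simp at h
    linear_combination h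
  rcases mul_eq_zero.1 h1 with h2 | h2
  · left; linear_combination h2
  · right
    exact eq_inv_of_mul_eq_one_left (by linear_combination h2)

theorem two_mul_card_T {k d : ℕ} (hk : (k : F) ≠ 0) (hd : (d = 2 ∧ (2 : F) ≠ 0) ∨ (d = 1 ∧ (2 : F) = 0))
    (hkq : k ∣ Fintype.card F - 1 ∨ k ∣ Fintype.card F + 1) : k ≤ 2 * (T F k).card + d := by
  classical
  have hk0 : 0 < k := Nat.pos_of_ne_zero (by rintro rfl; simp at hk)
  have h1 := card_X hk hd
  have hex : ∀ x ∈ X F k, ∃ t : F, algebraMap F (AlgebraicClosure F) t = x + x⁻¹ := by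
    intro x hx
    rw [mem_X hk0] at hx
    apply Cfsg.Agent.BenderMod.Arith.exists_algebraMap_eq
    rw [add_pow_q]
    have hx0 := ne_zero_of_mem hk0 hx.1
    rcases hkq with h | h
    · have h2 : x ^ (Fintype.card F - 1) = 1 := by
        obtain ⟨c, hc⟩ := h
        rw [hc, pow_mul, hx.1, one_pow]
      have h3 : x ^ Fintype.card F = x := by
        have h4 : Fintype.card F = (Fintype.card F - 1) + 1 := by
          have := Fintype.one_lt_card (α := F); omega
        rw [h4, pow_succ, h2, one_mul]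
      rw [inv_pow, h3]
    · have h2 : x ^ (Fintype.card F + 1) = 1 := by
        obtain ⟨c, hc⟩ := h
        rw [hc, pow_mul, hx.1, one_pow]
      have h3 : x ^ Fintype.card F = x⁻¹ := by
        rw [pow_succ] at h2
        exact eq_inv_of_mul_eq_one_left h2
      rw [inv_pow, h3, inv_inv, add_comm]
  choose! f hf using hex
  have h2 : (X F k).card ≤ 2 * (T F k).card := by
    apply Finset.card_le_mul_card_image_of_maps_to (f := f)
    · intro x hx
      rw [mem_T]
      exact ⟨x, hx, hf x hx⟩
    · intro t ht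
      rw [mem_T] at ht
      obtain ⟨y, hy, hyt⟩ := ht
      have hy0 := ne_zero_of_mem hk0 ((mem_X hk0).1 hy).1
      have h3 : (X F k).filter (fun x => f x = t) ⊆ {y, y⁻¹} := by
        intro x hx
        rw [Finset.mem_filter] at hx
        have hx0 := ne_zero_of_mem hk0 ((mem_X hk0).1 hx.1).1
        have h4 := hf x hx.1
        rw [hx.2, hyt] at h4
        rw [Finset.mem_insert, Finset.mem_singleton]
        exact add_inv_eq hx0 hy0 h4.symm
      exact (Finset.card_le_card h3).trans Finset.card_le_two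
  omega

/-- if `k ∣ q - 1` the polynomial has two roots -/
theorem card_trSet_split {k : ℕ} (hk : 0 < k) (hkq : k ∣ Fintype.card F - 1) {t : F} (ht : t ∈ T F k) :
    Fintype.card F * (Fintype.card F - 1) + 2 * Fintype.card F ≤ Nat.card (trSet t) := by
  classical
  rw [card_trSet]
  rw [mem_T] at ht
  obtain ⟨x, hx, hxt⟩ := ht
  rw [mem_X hk] at hx
  have hx0 := ne_zero_of_mem hk hx.1
  have h2 : x ^ (Fintype.card F - 1) = 1 := by
    obtain ⟨c, hc⟩ := hkq
    rw [hc, pow_mul, hx.1, one_pow]
  have h3 : x ^ Fintype.card F = x := by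
    have h4 : Fintype.card F = (Fintype.card F - 1) + 1 := by
      have := Fintype.one_lt_card (α := F); omega
    rw [h4, pow_succ, h2, one_mul]
  obtain ⟨a, ha⟩ := Cfsg.Agent.BenderMod.Arith.exists_algebraMap_eq h3
  have ha0 : a ≠ 0 := by
    rintro rfl
    rw [map_zero] at ha
    exact hx0 ha.symm
  have hinj : Function.Injective (algebraMap F (AlgebraicClosure F)) := (algebraMap F _).injective
  have hta : t = a + a⁻¹ := by
    apply hinj
    rw [hxt, map_add, map_inv₀, ha]
  have haa : a ≠ a⁻¹ := by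
    intro h
    apply hx.2
    rw [← ha, ← map_mul]
    have : a * a = 1 := by
      nth_rewrite 2 [h]
      exact mul_inv_cancel₀ ha0
    rw [this, map_one]
  have h5 : ({a, a⁻¹} : Finset F) ⊆ Finset.univ.filter (fun b : F => b * (t - b) - 1 = 0) := by
    intro b hb
    rw [Finset.mem_insert, Finset.mem_singleton] at hb
    rw [Finset.mem_filter]
    refine ⟨Finset.mem_univ _, ?_⟩
    rcases hb with rfl | rfl
    · rw [hta]; field_simp; ring
    · rw [hta]; field_simp; ring
  have h6 : 2 ≤ (Finset.univ.filter (fun b : F => b * (t - b) - 1 = 0)).card := by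
    rw [← Finset.card_pair haa]
    exact Finset.card_le_card h5
  have := Nat.mul_le_mul_right (Fintype.card F) h6
  omega

theorem T_disjoint {k l : ℕ} (hk0 : 0 < k) (hl0 : 0 < l) (hk : k ∣ Fintype.card F - 1) (hl : l ∣ Fintype.card F + 1) :
    Disjoint (T F k) (T F l) := by
  rw [Finset.disjoint_left]
  intro t ht ht'
  rw [mem_T] at ht ht'
  obtain ⟨x, hx, hxt⟩ := ht
  obtain ⟨y, hy, hyt⟩ := ht'
  rw [mem_X hk0] at hx
  rw [mem_X hl0] at hy
  have hx0 := ne_zero_of_mem hk0 hx.1
  have hy0 := ne_zero_of_mem hl0 hy.1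
  have h1 : x ^ (Fintype.card F - 1) = 1 := by
    obtain ⟨c, hc⟩ := hk
    rw [hc, pow_mul, hx.1, one_pow]
  have h2 : x ^ (Fintype.card F + 1) = 1 := by
    have h3 : y ^ (Fintype.card F + 1) = 1 := by
      obtain ⟨c, hc⟩ := hl
      rw [hc, pow_mul, hy.1, one_pow]
    rcases add_inv_eq hx0 hy0 (hxt.symm.trans hyt) with h | h
    · rw [h]; exact h3
    · rw [h, inv_pow, h3, inv_one]
  apply hx.2
  have h4 : Fintype.card F + 1 = (Fintype.card F - 1) + 2 := by
    have := Fintype.one_lt_card (α := F); omega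
  rw [h4, pow_add, h1, one_mul] at h2
  rw [← h2]; ring

theorem T_ne {k : ℕ} (hk0 : 0 < k) {t : F} (ht : t ∈ T F k) (h : t = 2 ∨ t = -2) : False := by
  rw [mem_T] at ht
  obtain ⟨x, hx, hxt⟩ := ht
  rw [mem_X hk0] at hx
  have hx0 := ne_zero_of_mem hk0 hx.1
  apply hx.2
  rcases h with rfl | rfl
  · have h1 : (x - 1) * (x - 1) = 0 := by
      rw [map_ofNat] at hxt
      field_simp at hxt
      linear_combination -hxt
    have h2 : x = 1 := by
      have := mul_self_eq_zero.1 h1
      linear_combination this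
    rw [h2, one_mul]
  · have h1 : (x + 1) * (x + 1) = 0 := by
      rw [map_neg, map_ofNat] at hxt
      field_simp at hxt
      linear_combination -hxt
    have h2 : x = -1 := by
      have := mul_self_eq_zero.1 h1
      linear_combination this
    rw [h2]; ring

end traces


/-! ### The lower bound -/

section bound

variable [Fintype F]

/-- the elements whose `n`-th power is central -/
def W (F : Type*) [Field F] (n : ℕ) : Set (Matrix.SpecialLinearGroup (Fin 2) F) :=
  {A | A ^ n ∈ center (Matrix.SpecialLinearGroup (Fin 2) F)}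

theorem card_W_eq_sum (n : ℕ) : Nat.card (W F n) = ∑ t : F, Nat.card ↥(W F n ∩ trSet t) := by
  classical
  rw [← Nat.card_congr (Equiv.sigmaFiberEquiv (fun A : W F n => A.1 0 0 + A.1 1 1)), Nat.card_sigma]
  refine Finset.sum_congr rfl fun t _ => ?_
  exact Nat.card_congr ⟨fun x => ⟨x.1.1, x.1.2, x.2⟩, fun x => ⟨⟨x.1, x.2.1⟩, x.2.2⟩, fun _ => rfl, fun _ => rfl⟩

theorem card_inter_of_subset {n : ℕ} {t : F} (h : trSet t ⊆ W F n) : Nat.card ↥(W F n ∩ trSet t) = Nat.card (trSet t) := by
  rw [Set.inter_eq_self_of_subset_right h]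

/-- unipotent elements -/
theorem pow_mem_center_of_two {n : ℕ} (hn : (n : F) = 0) {t : F} (ht : t = 2 ∨ t = -2)
    {A : Matrix.SpecialLinearGroup (Fin 2) F} (hA : A ∈ trSet t) : A ∈ W F n := by
  have hA' : A 0 0 + A 1 1 = t := hA
  have hd := A.2
  rw [Matrix.det_fin_two] at hd
  -- `U = ε A` has trace `2`
  have key : ∀ U : Matrix (Fin 2) (Fin 2) F, U * U = (2 : F) • U - 1 → U ^ n = 1 := by
    intro U hU
    have h1 : ∀ k : ℕ, U ^ k = 1 + (k : F) • (U - 1) := by
      intro k
      induction k with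
      | zero => simp
      | succ k ih =>
        rw [pow_succ, ih, add_mul, one_mul, smul_mul_assoc, sub_mul, one_mul, hU]
        push_cast
        rw [add_smul, one_smul, two_smul]
        have e : U + U - 1 - U = U - 1 := by abel
        rw [e]
        abel
    rw [h1 n, hn, zero_smul, add_zero]
  change A ^ n ∈ center _
  rw [Cfsg.Agent.ClassicalGeometry.PSL2Basic.mem_center_SL2_iff]
  rcases ht with ht | ht
  · left
    apply Subtype.ext
    rw [Matrix.SpecialLinearGroup.coe_pow]
    rw [Matrix.SpecialLinearGroup.coe_one]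
    apply key
    ext i j
    rw [ht] at hA'
    fin_cases i <;> fin_cases j <;> simp [Matrix.mul_apply, Fin.sum_univ_two]
    · linear_combination (A 0 0) * hA' - hd
    · linear_combination (A 0 1) * hA'
    · linear_combination (A 1 0) * hA'
    · linear_combination (A 1 1) * hA' - hd
  · have h2 : (-(A : Matrix (Fin 2) (Fin 2) F)) ^ n = 1 := by
      apply key
      ext i j
      rw [ht] at hA'
      fin_cases i <;> fin_cases j <;> simp [Matrix.mul_apply, Fin.sum_univ_two]
      · linear_combination (A 0 0) * hA' - hd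
      · linear_combination (A 0 1) * hA'
      · linear_combination (A 1 0) * hA'
      · linear_combination (A 1 1) * hA' - hd
    rw [neg_pow] at h2
    rcases neg_one_pow_eq_or (Matrix (Fin 2) (Fin 2) F) n with h3 | h3
    · left
      rw [h3, one_mul] at h2
      apply Subtype.ext
      rw [Matrix.SpecialLinearGroup.coe_pow, h2, Matrix.SpecialLinearGroup.coe_one]
    · right
      rw [h3, neg_one_mul] at h2
      apply Subtype.ext
      rw [Matrix.SpecialLinearGroup.coe_pow, Matrix.SpecialLinearGroup.coe_neg, Matrix.SpecialLinearGroup.coe_one, ← h2, neg_neg]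

theorem trSet_subset {n k : ℕ} (hk : 0 < k) (hkn : ∀ x : AlgebraicClosure F, x ^ k = 1 → x ^ n = 1 ∨ x ^ n = -1) {t : F}
    (ht : t ∈ T F k) : trSet t ⊆ W F n := by
  intro A hA
  rw [mem_T] at ht
  obtain ⟨x, hx, hxt⟩ := ht
  rw [mem_X hk] at hx
  have hx0 := ne_zero_of_mem hk hx.1
  refine pow_mem_center hx0 ?_ hxt (hkn x hx.1) hA
  intro h
  apply hx.2
  nth_rewrite 2 [h]
  exact mul_inv_cancel₀ hx0

theorem card_trSet_ge (t : F) : Fintype.card F * (Fintype.card F - 1) ≤ Nat.card (trSet t) := by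
  classical
  rw [card_trSet]
  exact Nat.le_add_right _ _

theorem card_trSet_two {t : F} (ht : t = 2 ∨ t = -2) :
    Fintype.card F * (Fintype.card F - 1) + Fintype.card F ≤ Nat.card (trSet t) := by
  classical
  rw [card_trSet]
  have h6 : 1 ≤ (Finset.univ.filter (fun b : F => b * (t - b) - 1 = 0)).card := by
    rw [Nat.one_le_iff_ne_zero, Finset.card_ne_zero]
    rcases ht with rfl | rfl
    · exact ⟨1, by rw [Finset.mem_filter]; refine ⟨Finset.mem_univ _, by ring⟩⟩
    · exact ⟨-1, by rw [Finset.mem_filter]; refine ⟨Finset.mem_univ _, by ring⟩⟩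
  have := Nat.mul_le_mul_right (Fintype.card F) h6
  omega

/-- **Lower bound for the number of matrices with central `n`-th power.** `k = d β`, `l = d γ`. -/
theorem card_W_ge {n k l d e : ℕ} (hd : (d = 2 ∧ (2 : F) ≠ 0) ∨ (d = 1 ∧ (2 : F) = 0))
    (hk0 : 0 < k) (hl0 : 0 < l) (hk : k ∣ Fintype.card F - 1) (hl : l ∣ Fintype.card F + 1)
    (hkn : ∀ x : AlgebraicClosure F, x ^ k = 1 → x ^ n = 1 ∨ x ^ n = -1)
    (hln : ∀ x : AlgebraicClosure F, x ^ l = 1 → x ^ n = 1 ∨ x ^ n = -1)
    (he : e = 1 ∨ ((n : F) = 0 ∧ e = Fintype.card F ^ 2)) :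
    k * (Fintype.card F ^ 2 + Fintype.card F) + l * (Fintype.card F ^ 2 - Fintype.card F) + 2 * d * e ≤
      2 * Nat.card (W F n) + d * (2 * Fintype.card F ^ 2) := by
  classical
  set q := Fintype.card F with hq
  have hq1 : 1 < q := Fintype.one_lt_card
  obtain ⟨q', hq'⟩ : ∃ q', q = q' + 1 := ⟨q - 1, by omega⟩
  have hcast : ∀ j : ℕ, (j ∣ q - 1 ∨ j ∣ q + 1) → (j : F) ≠ 0 := by
    intro j hj h0
    have hqF : (q : F) = 0 := FiniteField.cast_card_eq_zero F
    rcases hj with ⟨c, hc⟩ | ⟨c, hc⟩
    · have h1 : ((q - 1 : ℕ) : F) = 0 := by rw [hc, Nat.cast_mul, h0, zero_mul]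
      rw [Nat.cast_sub hq1.le, hqF, Nat.cast_one] at h1
      simp at h1
    · have h1 : ((q + 1 : ℕ) : F) = 0 := by rw [hc, Nat.cast_mul, h0, zero_mul]
      rw [Nat.cast_add, hqF, Nat.cast_one] at h1
      simp at h1
  have hT1 := two_mul_card_T (hcast k (Or.inl hk)) hd (Or.inl hk)
  have hT2 := two_mul_card_T (hcast l (Or.inr hl)) hd (Or.inr hl)
  set D : Finset F := {2, -2} with hD
  have hDc : D.card = d := by
    rcases hd with ⟨rfl, h2⟩ | ⟨rfl, h2⟩
    · rw [hD]
      apply Finset.card_pair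
      intro h
      apply h2
      have h4 : (2 : F) * 2 = 0 := by linear_combination h
      rcases mul_eq_zero.1 h4 with h5 | h5 <;> exact h5
    · rw [hD, h2]; simp
  have hdisj : Disjoint (T F k) (T F l) := T_disjoint hk0 hl0 hk hl
  have hdisj2 : Disjoint (T F k ∪ T F l) D := by
    rw [Finset.disjoint_left]
    intro t ht htD
    have htD' : t = 2 ∨ t = -2 := by
      rw [hD, Finset.mem_insert, Finset.mem_singleton] at htD
      exact htD
    rcases Finset.mem_union.1 ht with h | h
    · exact T_ne hk0 h htD'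
    · exact T_ne hl0 h htD'
  have h1 : ∑ t ∈ (T F k ∪ T F l) ∪ D, Nat.card ↥(W F n ∩ trSet t) ≤ Nat.card (W F n) := by
    rw [card_W_eq_sum]
    exact Finset.sum_le_univ_sum_of_nonneg (fun _ => Nat.zero_le _)
  rw [Finset.sum_union hdisj2, Finset.sum_union hdisj] at h1
  have h2 : (T F k).card * (q * (q - 1) + 2 * q) ≤ ∑ t ∈ T F k, Nat.card ↥(W F n ∩ trSet t) := by
    rw [← smul_eq_mul, ← Finset.sum_const]
    refine Finset.sum_le_sum fun t ht => ?_
    rw [card_inter_of_subset (trSet_subset hk0 hkn ht)]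
    exact card_trSet_split hk0 hk ht
  have h3 : (T F l).card * (q * (q - 1)) ≤ ∑ t ∈ T F l, Nat.card ↥(W F n ∩ trSet t) := by
    rw [← smul_eq_mul, ← Finset.sum_const]
    refine Finset.sum_le_sum fun t ht => ?_
    rw [card_inter_of_subset (trSet_subset hl0 hln ht)]
    exact card_trSet_ge t
  have h4 : d * e ≤ ∑ t ∈ D, Nat.card ↥(W F n ∩ trSet t) := by
    rw [← hDc, ← smul_eq_mul, ← Finset.sum_const]
    refine Finset.sum_le_sum fun t ht => ?_
    have ht' : t = 2 ∨ t = -2 := by
      rw [hD, Finset.mem_insert, Finset.mem_singleton] at ht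
      exact ht
    rcases he with rfl | ⟨hn0, rfl⟩
    · -- the scalar
      have hne : Nonempty ↥(W F n ∩ trSet t) := by
        rcases ht' with rfl | rfl
        · refine ⟨⟨1, ?_, ?_⟩⟩
          · change (1 : Matrix.SpecialLinearGroup (Fin 2) F) ^ n ∈ center _
            rw [one_pow]; exact one_mem _
          · change (1 : Matrix.SpecialLinearGroup (Fin 2) F) 0 0 + (1 : Matrix.SpecialLinearGroup (Fin 2) F) 1 1 = 2
            simp; ring
        · refine ⟨⟨-1, ?_, ?_⟩⟩
          · change (-1 : Matrix.SpecialLinearGroup (Fin 2) F) ^ n ∈ center _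
            exact pow_mem (Cfsg.Agent.ClassicalGeometry.PSL2Basic.mem_center_SL2_iff.2 (Or.inr rfl)) n
          · change (-1 : Matrix.SpecialLinearGroup (Fin 2) F) 0 0 + (-1 : Matrix.SpecialLinearGroup (Fin 2) F) 1 1 = -2
            simp; ring
      exact Nat.card_pos
    · rw [card_inter_of_subset (fun A hA => pow_mem_center_of_two hn0 ht' hA)]
      refine le_trans (le_of_eq ?_) (card_trSet_two ht')
      rw [← hq, hq']
      simp only [Nat.add_sub_cancel]
      ring
  rw [hq'] at h2 h3 ⊢
  simp only [Nat.add_sub_cancel] at h2 h3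
  have h5 : (q' + 1) ^ 2 - (q' + 1) = (q' + 1) * q' := by
    rw [pow_two, ← Nat.mul_sub_one]; simp
  rw [h5]
  nlinarith [Nat.mul_le_mul_right ((q' + 1) * q' + 2 * (q' + 1)) hT1, Nat.mul_le_mul_right ((q' + 1) * q') hT2]

end bound

end Cfsg.Agent.H20.PSLTwoCount
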