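import Mathlib
import Cfsg.Agent.H20.PSLTwoCount

/-!
# Frobenius' conjecture for `PSL(2, q)`

`frob` : if `n` divides `|PSL(2,q)|`, `q ≥ 4`, and `x ^ n = 1` has exactly `n` solutions, then
`n = 1` or `n = |PSL(2,q)|`.
-/

set_option autoImplicit false

namespace Cfsg.Agent.H20.PSLTwoFrob

open Subgroup Cfsg.Agent.H20.PSLTwoCount Cfsg.Agent.H20.FrobReduce

theorem arith_one {q d β γ n : ℕ} (hq : 4 ≤ q) (hd : 1 ≤ d) (hβ : 0 < β) (hγ : 0 < γ) (h1 : d * β ≤ q - 1)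
    (h2 : d * γ ≤ q + 1) (hn : n ≤ q * (d * β * γ)) (h : β * (q ^ 2 + q) + γ * (q ^ 2 - q) ≤ 2 * n) :
    d * n = q * (q ^ 2 - 1) := by
  obtain ⟨q', rfl⟩ : ∃ q', q = q' + 1 := ⟨q - 1, by omega⟩
  simp only [Nat.add_sub_cancel] at h1
  have h3 : (q' + 1) ^ 2 - (q' + 1) = (q' + 1) * q' := by
    rw [pow_two, ← Nat.mul_sub_one]; simp
  rw [h3] at h
  have h4 : (q' + 1) ^ 2 - 1 = q' * (q' + 2) := by
    have : (q' + 1) ^ 2 = q' * (q' + 2) + 1 := by ring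
    omega
  rw [h4]
  -- β (q + 1) ≥ β d γ, γ (q-1) ≥ γ d β
  have h5 : β * (d * γ) ≤ β * (q' + 2) := Nat.mul_le_mul_left _ h2
  have h6 : γ * (d * β) ≤ γ * q' := Nat.mul_le_mul_left _ h1
  have h7 : β * (q' + 2) + γ * q' ≤ 2 * (d * β * γ) := by
    have h8 : (q' + 1) * (β * (q' + 2) + γ * q') ≤ (q' + 1) * (2 * (d * β * γ)) := by nlinarith
    exact Nat.le_of_mul_le_mul_left h8 (by omega)
  have h8 : β * (d * γ) = β * (q' + 2) := by nlinarith
  have h9 : γ * (d * β) = γ * q' := by nlinarith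
  have h10 : d * γ = q' + 2 := Nat.eq_of_mul_eq_mul_left hβ h8
  have h11 : d * β = q' := Nat.eq_of_mul_eq_mul_left hγ h9
  have h12 : 2 * n = 2 * ((q' + 1) * (d * β * γ)) := by nlinarith
  have h13 : n = (q' + 1) * (d * β * γ) := by omega
  rw [h13, ← h10]
  nth_rewrite 3 [← h11]
  ring

theorem arith_two {q d β γ n : ℕ} (hq : 4 ≤ q) (hd : 1 ≤ d) (hd2 : d ≤ 2) (hβ : 0 < β) (hγ : 0 < γ)
    (h2 : d * γ ≤ q + 1) (hn : n ≤ d * β * γ) (h : β * (q ^ 2 + q) + γ * (q ^ 2 - q) + 2 ≤ 2 * n + 2 * q ^ 2) :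
    β = 1 ∧ γ = 1 := by
  obtain ⟨b, rfl⟩ : ∃ b, β = b + 1 := ⟨β - 1, by omega⟩
  obtain ⟨g, rfl⟩ : ∃ g, γ = g + 1 := ⟨γ - 1, by omega⟩
  obtain ⟨q', rfl⟩ : ∃ q', q = q' + 4 := ⟨q - 4, by omega⟩
  have h3 : (q' + 4) ^ 2 - (q' + 4) = (q' + 4) * (q' + 3) := by
    have : (q' + 4) ^ 2 = (q' + 4) * (q' + 3) + (q' + 4) := by ring
    omega
  rw [h3] at h
  have h5 : b * (d * (g + 1)) ≤ b * (q' + 4 + 1) := Nat.mul_le_mul_left _ h2
  have h6 : d * g ≤ 2 * g := Nat.mul_le_mul_right _ hd2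
  have h7 : b * ((q' + 4) ^ 2 + (q' + 4)) + g * ((q' + 4) * (q' + 3)) + 2 ≤ 2 * (d * (b + 1) * (g + 1)) := by
    nlinarith
  have h8 : 2 * (d * (b + 1) * (g + 1)) = 2 * (b * (d * (g + 1))) + 2 * (d * g) + 2 * d := by ring
  rw [h8] at h7
  have h9 : b * ((q' + 4) ^ 2 + (q' + 4)) + g * ((q' + 4) * (q' + 3)) + 2 ≤ 2 * (b * (q' + 4 + 1)) + 2 * (2 * g) + 4 := by
    omega
  have h10 : b * (q' * q' + 7 * q' + 10) + g * (q' * q' + 7 * q' + 8) ≤ 2 := by nlinarith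
  constructor
  · rcases Nat.eq_zero_or_pos b with hb | hb
    · omega
    · exfalso
      have : 1 * 10 ≤ b * (q' * q' + 7 * q' + 10) := Nat.mul_le_mul hb (by omega)
      omega
  · rcases Nat.eq_zero_or_pos g with hg | hg
    · omega
    · exfalso
      have : 1 * 8 ≤ g * (q' * q' + 7 * q' + 8) := Nat.mul_le_mul hg (by omega)
      omega

variable (F : Type*) [Field F] [Fintype F]

theorem card_W (n : ℕ) : Nat.card (W F n) =
    Nat.card (center (Matrix.SpecialLinearGroup (Fin 2) F)) * cnt (Matrix.ProjectiveSpecialLinearGroup (Fin 2) F) n := by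
  have h := Cfsg.Agent.H20.HallCoset.card_preimage (center (Matrix.SpecialLinearGroup (Fin 2) F))
    {x : Matrix.SpecialLinearGroup (Fin 2) F ⧸ center (Matrix.SpecialLinearGroup (Fin 2) F) | x ^ n = 1}
  rw [cnt]
  refine Eq.trans ?_ h
  refine Nat.card_congr (Equiv.setCongr (Set.ext fun A => ?_))
  constructor
  · intro hA
    change (QuotientGroup.mk' (center (Matrix.SpecialLinearGroup (Fin 2) F)) A) ^ n = 1
    rw [← map_pow]
    exact (QuotientGroup.eq_one_iff _).2 hA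
  · intro hA
    have hA' : (QuotientGroup.mk' (center (Matrix.SpecialLinearGroup (Fin 2) F)) A) ^ n = 1 := hA
    rw [← map_pow] at hA'
    exact (QuotientGroup.eq_one_iff _).1 hA'

/-- Frobenius' conjecture for `PSL(2,q)`. -/
theorem frob (hq4 : 4 ≤ Fintype.card F) (n : ℕ)
    (hn : n ∣ Nat.card (Matrix.ProjectiveSpecialLinearGroup (Fin 2) F))
    (hc : cnt (Matrix.ProjectiveSpecialLinearGroup (Fin 2) F) n = n) :
    n = 1 ∨ n = Nat.card (Matrix.ProjectiveSpecialLinearGroup (Fin 2) F) := by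
  set q := Fintype.card F with hq
  set N := Nat.card (Matrix.ProjectiveSpecialLinearGroup (Fin 2) F) with hN
  have hn0 : 0 < n := by
    rw [← hc]; exact cnt_pos _ _
  -- the number `d`
  obtain ⟨d, hd, hcen, hNd, hdu⟩ : ∃ d, ((d = 2 ∧ (2 : F) ≠ 0) ∨ (d = 1 ∧ (2 : F) = 0)) ∧
      Nat.card (center (Matrix.SpecialLinearGroup (Fin 2) F)) = d ∧ N * d = q * (q ^ 2 - 1) ∧ d ∣ q - 1 := by
    by_cases h2 : (2 : F) = 0
    · refine ⟨1, Or.inr ⟨rfl, h2⟩, Cfsg.Agent.ClassicalGeometry.PSL2Basic.card_center_SL2_even h2, ?_, one_dvd _⟩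
      rw [mul_one]
      refine Cfsg.Agent.ClassicalGeometry.PSL2Basic.card_PSL2_even F ?_
      rw [← Nat.not_odd_iff_even]
      intro h
      exact (Cfsg.Agent.ClassicalGeometry.PSL2Basic.two_ne_zero_iff_odd F).2 h h2
    · have hodd := (Cfsg.Agent.ClassicalGeometry.PSL2Basic.two_ne_zero_iff_odd F).1 h2
      refine ⟨2, Or.inl ⟨rfl, h2⟩, Cfsg.Agent.ClassicalGeometry.PSL2Basic.card_center_SL2_odd h2,
        Cfsg.Agent.ClassicalGeometry.PSL2Basic.card_PSL2_odd F hodd, (Nat.Odd.sub_odd hodd odd_one).two_dvd⟩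
  have hd1 : 1 ≤ d := by rcases hd with ⟨rfl, -⟩ | ⟨rfl, -⟩ <;> omega
  have hd2 : d ≤ 2 := by rcases hd with ⟨rfl, -⟩ | ⟨rfl, -⟩ <;> omega
  have hdv : d ∣ q + 1 := by
    have : q + 1 = (q - 1) + 2 := by omega
    rw [this]
    refine dvd_add hdu ?_
    rcases hd with ⟨rfl, -⟩ | ⟨rfl, -⟩
    · exact dvd_rfl
    · exact one_dvd _
  obtain ⟨u, hu⟩ := hdu
  obtain ⟨v, hv⟩ := hdv
  have hu0 : 0 < u := Nat.pos_of_ne_zero (by rintro rfl; omega)
  have hv0 : 0 < v := Nat.pos_of_ne_zero (by rintro rfl; omega)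
  set β := Nat.gcd n u with hβ
  set γ := Nat.gcd n v with hγ
  have hβ0 : 0 < β := Nat.gcd_pos_of_pos_left _ hn0
  have hγ0 : 0 < γ := Nat.gcd_pos_of_pos_left _ hn0
  have hβu : β ∣ u := Nat.gcd_dvd_right _ _
  have hγv : γ ∣ v := Nat.gcd_dvd_right _ _
  have hkq : d * β ∣ q - 1 := by rw [hu]; exact Nat.mul_dvd_mul_left d hβu
  have hlq : d * γ ∣ q + 1 := by rw [hv]; exact Nat.mul_dvd_mul_left d hγv
  have hkle : d * β ≤ q - 1 := Nat.le_of_dvd (by omega) hkq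
  have hlle : d * γ ≤ q + 1 := Nat.le_of_dvd (by omega) hlq
  have hpm : ∀ g : ℕ, g ∣ n → ∀ x : AlgebraicClosure F, x ^ (d * g) = 1 → x ^ n = 1 ∨ x ^ n = -1 := by
    rintro g ⟨c, hc'⟩ x hx
    have h1 : x ^ g = 1 ∨ x ^ g = -1 := by
      rcases hd with ⟨rfl, -⟩ | ⟨rfl, -⟩
      · rw [mul_comm, pow_mul] at hx
        have h6 : (x ^ g - 1) * (x ^ g + 1) = 0 := by linear_combination hx
        rcases mul_eq_zero.1 h6 with h7 | h7
        · left; linear_combination h7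
        · right; linear_combination h7
      · rw [one_mul] at hx; exact Or.inl hx
    rw [hc', pow_mul]
    rcases h1 with h1 | h1
    · left; rw [h1, one_pow]
    · rw [h1]; exact neg_one_pow_eq_or _ c
  have hNq : N = q * (d * u * v) := by
    have h1 : q ^ 2 - 1 = (q - 1) * (q + 1) := by
      obtain ⟨q', hq'⟩ : ∃ q', q = q' + 1 := ⟨q - 1, by omega⟩
      rw [hq']
      simp only [Nat.add_sub_cancel]
      have : (q' + 1) ^ 2 = q' * (q' + 1 + 1) + 1 := by ring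
      omega
    rw [h1, hu, hv] at hNd
    have h2 : N * d = (q * (d * u * v)) * d := by rw [hNd]; ring
    exact Nat.eq_of_mul_eq_mul_right hd1 h2
  -- the upper bound
  have hup : n ∣ Nat.gcd n q * (d * β * γ) := by
    have h1 : n ∣ q * (d * u * v) := hNq ▸ hn
    have h2 : n = Nat.gcd n (q * (d * u * v)) := (Nat.gcd_eq_left h1).symm
    have h3 : Nat.gcd n (q * (d * u * v)) ∣ Nat.gcd n q * Nat.gcd n (d * u * v) := Nat.gcd_mul_right_dvd_mul_gcd _ _ _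
    have h4 : Nat.gcd n (d * u * v) ∣ Nat.gcd n (d * u) * Nat.gcd n v := Nat.gcd_mul_right_dvd_mul_gcd _ _ _
    have h5 : Nat.gcd n (d * u) ∣ Nat.gcd n d * Nat.gcd n u := Nat.gcd_mul_right_dvd_mul_gcd _ _ _
    have h6 : Nat.gcd n d ∣ d := Nat.gcd_dvd_right _ _
    calc n = Nat.gcd n (q * (d * u * v)) := h2
      _ ∣ Nat.gcd n q * Nat.gcd n (d * u * v) := h3
      _ ∣ Nat.gcd n q * (Nat.gcd n (d * u) * Nat.gcd n v) := Nat.mul_dvd_mul_left _ h4
      _ ∣ Nat.gcd n q * (d * β * γ) :=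
        Nat.mul_dvd_mul_left _ (Nat.mul_dvd_mul (h5.trans (Nat.mul_dvd_mul h6 dvd_rfl)) dvd_rfl)
  have hdbg : 0 < d * β * γ := Nat.mul_pos (Nat.mul_pos hd1 hβ0) hγ0
  have hcW := card_W F n
  rw [hcen, hc] at hcW
  by_cases hp : (n : F) = 0
  · right
    have h1 := card_W_ge (F := F) (n := n) hd (Nat.mul_pos hd1 hβ0) (Nat.mul_pos hd1 hγ0) hkq hlq
      (hpm β (Nat.gcd_dvd_left _ _)) (hpm γ (Nat.gcd_dvd_left _ _)) (e := q ^ 2) (Or.inr ⟨hp, rfl⟩)
    rw [hcW, ← hq] at h1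
    have h2 : n ≤ q * (d * β * γ) := by
      refine (Nat.le_of_dvd (Nat.mul_pos (Nat.gcd_pos_of_pos_left _ hn0) hdbg) hup).trans ?_
      exact Nat.mul_le_mul_right _ (Nat.le_of_dvd (by omega) (Nat.gcd_dvd_right _ _))
    have h3 : β * (q ^ 2 + q) + γ * (q ^ 2 - q) ≤ 2 * n := by
      have h4 : d * (β * (q ^ 2 + q) + γ * (q ^ 2 - q)) ≤ d * (2 * n) := by
        have e1 : d * β * (q ^ 2 + q) + d * γ * (q ^ 2 - q) = d * (β * (q ^ 2 + q) + γ * (q ^ 2 - q)) := by ring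
        have e2 : 2 * d * q ^ 2 = d * (2 * q ^ 2) := by ring
        have e3 : 2 * (d * n) = d * (2 * n) := by ring
        omega
      exact Nat.le_of_mul_le_mul_left h4 hd1
    have h4 := arith_one hq4 hd1 hβ0 hγ0 hkle hlle h2 h3
    rw [← hNd, mul_comm] at h4
    exact Nat.eq_of_mul_eq_mul_right hd1 h4
  · left
    have h1 := card_W_ge (F := F) (n := n) hd (Nat.mul_pos hd1 hβ0) (Nat.mul_pos hd1 hγ0) hkq hlq
      (hpm β (Nat.gcd_dvd_left _ _)) (hpm γ (Nat.gcd_dvd_left _ _)) (e := 1) (Or.inl rfl)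
    rw [hcW, ← hq] at h1
    have hcop : Nat.gcd n q = 1 := by
      obtain ⟨p, hpc⟩ := CharP.exists F
      obtain ⟨f, hpp, hqf⟩ := FiniteField.card F p
      rw [← hq] at hqf
      rw [hqf]
      refine Nat.Coprime.pow_right _ ?_
      rw [Nat.coprime_comm, Nat.Prime.coprime_iff_not_dvd hpp]
      intro h
      exact hp ((CharP.cast_eq_zero_iff F p n).2 h)
    have h2 : n ≤ d * β * γ := by
      rw [hcop, one_mul] at hup
      exact Nat.le_of_dvd hdbg hup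
    have h3 : β * (q ^ 2 + q) + γ * (q ^ 2 - q) + 2 ≤ 2 * n + 2 * q ^ 2 := by
      have h4 : d * (β * (q ^ 2 + q) + γ * (q ^ 2 - q) + 2) ≤ d * (2 * n + 2 * q ^ 2) := by
        have e1 : d * β * (q ^ 2 + q) + d * γ * (q ^ 2 - q) + 2 * d * 1 =
          d * (β * (q ^ 2 + q) + γ * (q ^ 2 - q) + 2) := by ring
        have e3 : 2 * (d * n) + d * (2 * q ^ 2) = d * (2 * n + 2 * q ^ 2) := by ring
        omega
      exact Nat.le_of_mul_le_mul_left h4 hd1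
    obtain ⟨hb1, hg1⟩ := arith_two hq4 hd1 hd2 hβ0 hγ0 hlle h2 h3
    rw [hb1, hg1, mul_one, mul_one] at h2
    by_contra hn1
    have hn2 : n = 2 := by omega
    have hd2' : d = 2 := by omega
    rw [hn2] at hβ hγ
    have h5 : ¬ 2 ∣ u := by
      intro h
      rw [Nat.gcd_eq_left h] at hβ
      omega
    have h6 : ¬ 2 ∣ v := by
      intro h
      rw [Nat.gcd_eq_left h] at hγ
      omega
    rw [hd2'] at hu hv
    omega

end Cfsg.Agent.H20.PSLTwoFrob
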